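import Cfsg.Agent.E7P.Nt.White
import Cfsg.Agent.R2.T1.Mu2.Line
import Cfsg.Agent.R2.T1.N6D.Lq
import Cfsg.Agent.R2.T1.Inf.Ext
import Cfsg.Agent.ClassicalGeometry.AutPSL.Main
import Cfsg.Agent.Lib.FieldAutCard

/-!
# S5932, `p = 2` : no fixed vectors on the 56-dimensional module (helper98)

* `Sit.ca_func` : if `g ^ A` is central, an invariant functional on `g` which vanishes on the centre is zero;
* `Sit.ca_white` : there is no stable subspace `W ≠ 0` of singular vectors (every `p`);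
* `Sit.ca_nofixV` : if `g ^ A` is central then `V ^ A = 0`.
-/

set_option autoImplicit false
set_option maxRecDepth 100000

namespace Cfsg.Agent.E7P

open Cfsg Cfsg.Lie Matrix Module
open Cfsg.Agent.H943.E7V.Block (D1 rho)
open Cfsg.Agent.R2.T1 Cfsg.Agent.E7P.Kf Cfsg.Agent.R2.T1.Mu2
open Cfsg.Agent.R2.T1.N6D (Zc zv kf_rad Zc_eq del_zv L_of_mem zv_mem)
open Cfsg.Agent.R2.PX (del p2)

universe u v

/-- the solutions of a rational system are spanned by the rational solutions -/
theorem Ca.span_fix {F : Type u} {k : Type v} [Field F] [Field k] (f : F →+* k) {I Λ : Type*} [Fintype I]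
    (A : Λ → Matrix I I F) {y : I → k} (hy : ∀ l, (A l).map f *ᵥ y = y) :
    y ∈ Submodule.span k {v | ∃ x : I → F, (∀ l, A l *ᵥ x = x) ∧ v = fun i => f (x i)} := by
  classical
  let _ := f.toAlgebra
  let B := Basis.ofVectorSpace F k
  have h1 : y = ∑ j ∈ Finset.univ.biUnion fun i => (B.repr (y i)).support, B j • fun i => f (B.repr (y i) j) := by
    funext i
    rw [Finset.sum_apply]
    conv_lhs => rw [← B.linearCombination_repr (y i), Finsupp.linearCombination_apply,
      Finsupp.sum_of_support_subset _ (Finset.subset_biUnion_of_mem (fun i => (B.repr (y i)).support)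
        (Finset.mem_univ i)) (fun j c => c • B j) fun _ _ => zero_smul _ _]
    exact Finset.sum_congr rfl fun j _ => mul_comm _ _
  rw [h1]
  refine Submodule.sum_mem _ fun j _ => Submodule.smul_mem _ _ (Submodule.subset_span ⟨_, fun l => funext fun i => ?_, rfl⟩)
  conv_rhs => rw [← hy l]
  show _ = B.coord j (∑ t, A l i t • y t)
  rw [map_sum]
  exact Finset.sum_congr rfl fun t _ => (map_smul (B.coord j) _ _).symm

namespace Sit

variable {p a b : ℕ} {F : Type u} {K : Type v} {k : Type u} [Field F] [Fintype F] [Field K] [Fintype K] [Field k]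
  (S : Sit p a b F K k)

include S in
theorem ca_two (hp : p = 2) : (2 : k) = 0 := by
  have := S.chark
  exact_mod_cast (CharP.cast_eq_zero_iff k p 2).2 hp.dvd

theorem ca_card : 4 * Nat.card S.H < Nat.card F ^ 76 := by
  have := S.charK
  have : Fact p.Prime := ⟨S.prime⟩
  have h1 := S.max.card_le
  rw [ClassicalGeometry.AutPSL.Main.card_two p, Lib.FieldAutCard.card_ringAut S.ha S.cardK] at h1
  have h2 : Nat.card (ProjGenLinGroup (Fin 2) K) ≤ (p ^ a) ^ 4 := by
    refine (Nat.card_le_card_of_surjective _ ProjGenLinGroup.mk_surjective).trans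
      ((Nat.card_le_card_of_injective _ Units.val_injective).trans_eq ?_)
    rw [show Nat.card (Matrix (Fin 2) (Fin 2) K) = Nat.card (Fin 2 → Fin 2 → K) from rfl, Nat.card_fun, Nat.card_fun,
      Nat.card_eq_fintype_card, S.cardK, Nat.card_eq_fintype_card, Fintype.card_fin, ← pow_mul]
  have h3 : a ≤ b * 9 := by
    obtain ⟨d, hd, h⟩ := S.bound
    have h4 : 0 < d ∧ d ≤ 9 := by
      simp only [List.mem_cons, List.not_mem_nil, or_false] at hd
      omega
    exact (Nat.le_of_dvd (Nat.mul_pos S.hb h4.1) h).trans (Nat.mul_le_mul_left b h4.2)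
  have h4 : p ^ a ≤ Nat.card F ^ 9 := by
    rw [Nat.card_eq_fintype_card, S.cardF, ← pow_mul]
    exact Nat.pow_le_pow_right S.prime.pos h3
  have h5 : 1 < Nat.card F := Finite.one_lt_card
  calc 4 * Nat.card S.H ≤ Nat.card F ^ 2 * ((Nat.card F ^ 9) ^ 4 * Nat.card F ^ 9) :=
        Nat.mul_le_mul (Nat.pow_le_pow_left h5 2) (h1.trans (Nat.mul_le_mul (h2.trans (Nat.pow_le_pow_left h4 4))
          ((Nat.lt_pow_self S.prime.one_lt).le.trans h4)))
    _ = Nat.card F ^ 47 := by ring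
    _ < _ := Nat.pow_lt_pow_right h5 (by norm_num)

/-- vectors which are fixed modulo the centre are fixed -/
theorem ca_fix {y : chevE7.Idx → k} (h : ∀ x, L k (S.ψ x) y - y ∈ Zc k) (x : SpecialLinearGroup (Fin 2) K) :
    L k (S.ψ x) y = y := by
  let d : SpecialLinearGroup (Fin 2) K →* Multiplicative (chevE7.Idx → k) :=
    MonoidHom.mk' (fun x => Multiplicative.ofAdd (L k (S.ψ x) y - y)) fun x x' => by
      rw [← ofAdd_add, ← L_of_mem (h x') (S.ψ x), map_mul, map_mul, End.mul_apply, map_sub (L k (S.ψ x))]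
      congr 1
      abel
  have h1 : x ∈ d.ker := S.nt_all (fun x y => by
    rw [MonoidHom.mem_ker, map_mul, map_mul, map_mul, map_inv, map_inv, mul_inv_cancel_comm, mul_inv_cancel]) x
  exact sub_eq_zero.1 (ofAdd_eq_one.1 h1)

/-- invariant functionals -/
theorem ca_func (hp : p = 2) (hz : ∀ y, (∀ x, adM k (S.ψ x) *ᵥ y = y) → y ∈ Zc k) {c : (chevE7.Idx → k) →ₗ[k] k}
    (hc : ∀ x z, c (L k (S.ψ x) z) = c z) (h0 : c (zv k) = 0) : c = 0 := by
  have h2 := S.ca_two hp
  have h1 : c ∈ LinearMap.range (kf k).flip := by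
    rw [← LinearMap.dualAnnihilator_ker_eq_range_flip, Submodule.mem_dualAnnihilator]
    intro w hw
    have h3 : w ∈ Zc k := (kf_rad h2).1 fun x => by rw [kf_comm, show kf k w = 0 from hw, LinearMap.zero_apply]
    rw [Zc_eq h2, Submodule.mem_span_singleton] at h3
    obtain ⟨t, rfl⟩ := h3
    rw [map_smul, h0, smul_zero]
  obtain ⟨y, rfl⟩ := h1
  have h3 := S.ca_fix (y := y) fun x => (kf_rad h2).1 fun z => by
    have h4 : kf k (L k (S.ψ x⁻¹) z) y = kf k z y := hc x⁻¹ z
    rw [map_sub, ← h4, ← kf_L (S.ψ x) _ y, ← End.mul_apply, ← map_mul, ← map_mul, mul_inv_cancel, map_one, map_one,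
      End.one_apply, sub_self]
  exact LinearMap.ext ((kf_rad h2).2 (hz y fun x => (L_mulVec _ _).symm.trans (h3 x)))

/-- **WHITE**, every characteristic -/
theorem ca_white {W : Submodule k (D1 → k)} (hW : S.Stb (rho k) W) (hs : ∀ x ∈ W, Sing x) : W = ⊥ := by
  by_contra h0
  obtain ⟨x, hx, hx0⟩ := Submodule.exists_mem_ne_zero_of_ne_bot h0
  obtain ⟨m, hm⟩ := Function.ne_iff.1 hx0
  obtain ⟨g, e, -⟩ := nf (hs x hx) hm
  refine S.kill_unst wrep_V (X := W) ⟨⟨x, hx, hx0⟩, g, wv m, fun y hy i hi => ?_⟩ hW.1 hW.2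
  have h1 : bs k m ∈ W.map (V k g⁻¹) := ⟨(x m)⁻¹ • x, W.smul_mem _ hx, by
    nth_rewrite 2 [e]
    rw [inv_smul_smul₀ hm, ← End.mul_apply, ← map_mul, inv_mul_cancel, map_one, End.one_apply]⟩
  obtain ⟨h3, h4⟩ := orth_bs (polar_zero (W := W.map (V k g⁻¹)) (by
    rintro _ ⟨z, hz, rfl⟩
    exact (hs z hz).V _) h1 ⟨y, hy, rfl⟩)
  have h5 := nt_bf_wv m i
  have h6 : 0 < p2 m i := by
    rcases R2.PX.p2_cases m i with h | h | h | h
    · omega
    · omega
    · exact absurd (h3 i (by rw [R2.PX.p2_comm]; exact h)) hi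
    · rw [R2.PX.p2_eq_neg_three.1 h] at hi
      exact absurd h4 hi
  have h7 : (0 : ℝ) < p2 m i := by exact_mod_cast h6
  show 0 < bf (wv m) (wv i)
  linarith

/-- **NoFixV** for `p = 2` -/
theorem ca_nofixV (hp : p = 2) (hz : ∀ y, (∀ x, adM k (S.ψ x) *ᵥ y = y) → y ∈ Zc k) : S.NoFixV := by
  have h2 := S.ca_two hp
  have hW := S.nt_stb_fix wrep_V
  have h1 : ∀ v ∈ S.nt_fix (rho k), ∀ x z, Mu k v (L k (S.ψ x) z) = Mu k v z := fun v hv x z => by
    rw [← Mu_V (S.ψ x) v z, V_apply, hv x]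
  have h3 : ∀ v ∈ S.nt_fix (rho k), ∀ m ∈ S.M, Mu k (V k m v) = Mu k v := fun v hv m hm =>
    sub_eq_zero.1 (S.ca_func hp hz (fun x z => by
      rw [LinearMap.sub_apply, LinearMap.sub_apply, h1 v hv, h1 (V k m v) (hW.1 m hm v hv)]) (by
      rw [LinearMap.sub_apply, ← Mu_V m v, L_of_mem (zv_mem h2), sub_self]))
  let G : Set (D1 → k) := {v | ∃ x : D1 → F, (∀ l, rho F (S.ψ0 l) *ᵥ x = x) ∧ v = fun i => S.f (x i)}
  have h4 : ∀ v ∈ G, Mu k v (zv k) = 0 := by
    rintro _ ⟨x, hx, rfl⟩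
    have h5 : (fun i => S.f (x i)) ∈ S.nt_fix (rho k) := fun l =>
      (V_emb S.f (S.ψ0 l) x).trans (by rw [V_apply, hx l])
    have h6 : Mu F x = 0 := func_zero S.max.coatom S.ca_card fun g hg => LinearMap.ext fun z => S.f.injective (by
      rw [← Mu_map, ← Mu_map, ← V_emb, h3 _ h5 _ ⟨g, hg, rfl⟩])
    rw [show zv k = fun j => S.f (zv F j) from funext fun j => by
      rcases j with j | j
      · exact (map_intCast S.f _).symm
      · exact (map_zero S.f).symm, Mu_map, h6, LinearMap.zero_apply, map_zero]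
  have h5 : ∀ x y, Mu k (x + y) (zv k) = Mu k x (zv k) + Mu k y (zv k) + sf k y x := fun x y => by
    rw [Mu_add, del_zv h2, one_mulVec]
  have h6 : ∀ v ∈ G, Submodule.span k G ≤ LinearMap.ker (sf k v) := fun v hv => Submodule.span_le.2 fun v' hv' => by
    have h7 := h5 v' v
    rw [h4 v hv, h4 v' hv', h4, zero_add, zero_add] at h7
    · exact h7.symm
    · obtain ⟨x, hx, rfl⟩ := hv
      obtain ⟨x', hx', rfl⟩ := hv'
      exact ⟨x' + x, fun l => by rw [mulVec_add, hx, hx'], funext fun i => (map_add S.f _ _).symm⟩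
  have h7 : ∀ y ∈ Submodule.span k G, Mu k y (zv k) = 0 := fun y hy => by
    induction hy using Submodule.span_induction with
    | mem x hx => exact h4 x hx
    | zero => rw [Mu_zero, LinearMap.zero_apply]
    | add x y hx hy e1 e2 =>
      rw [h5, e1, e2, zero_add, zero_add]
      exact (Submodule.span_le.2 fun v hv => h6 v hv hx : Submodule.span k G ≤ LinearMap.ker ((sf k).flip x)) hy
    | smul c x _ e => rw [Mu_smul, LinearMap.smul_apply, e, smul_zero]
  exact (Submodule.eq_bot_iff _).1 (S.ca_white hW fun y hy => S.ca_func hp hz (h1 y hy)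
    (h7 y (Ca.span_fix S.f _ fun l => by rw [← rho_emb]; exact hy l)))

end Sit

end Cfsg.Agent.E7P
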