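import Cfsg.Agent.E7P.P2.Bas

/-!
# S5932, `p = 2`, Case 1: finite checks (helper23)

* `pr r s` : the pairing of two roots; `card_seven` : maximal sets of orthogonal roots have seven elements.
-/

set_option autoImplicit false
set_option maxRecDepth 100000

namespace Cfsg.Agent.E7P.Cb

open Cfsg Cfsg.Lie
open Cfsg.Agent.R2.PX (lk PT PC W56)
open Cfsg.Agent.R2.T2.Alg (zc)

/-- the coordinates of a coroot -/
def cor (r i : ℕ) : ℤ := (chevE7.coroot.getD r #[]).getD i 0

/-- the value of the root `s` on the coroot `r` -/
def pr (r s : ℕ) : ℤ := ((List.range 7).map fun i => chevE7.cartan i s * cor r i).sum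

theorem chk_self : ∀ r < 126, pr r r = 2 ∧ pr r (125 - r) = -2 := by decide +kernel

theorem chk_corneg : ∀ r < 126, ∀ i < 7, cor (125 - r) i = -cor r i := by decide +kernel

theorem chk_odd : ((List.range 126).all fun r => let R := PC.getD r 0
    (List.range 126).all fun s => Nat.beq (lk R s) 0 || decide (pr r s % 2 = 1)) = true := by decide +kernel

theorem chk_col0 : ((List.range 126).all fun r => let R := PT.getD r 0; let R' := PT.getD (125 - r) 0
    (List.range 126).all fun s => Nat.beq s r || Nat.beq s (125 - r) || (let S := PT.getD s 0
      W56.any fun b => Nat.beq (lk R (b - 120)) 0 && Nat.beq (lk R' (b - 120)) 0 && !Nat.beq (lk S (b - 120)) 0)) = true := by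
  decide +kernel

theorem chk_col1 : ((List.range 126).all fun r => let R := PT.getD r 0; let R' := PT.getD (125 - r) 0
    (List.range 126).all fun s => let S := PT.getD s 0
      W56.any fun b => !(Nat.beq (lk R (b - 120)) 0 && Nat.beq (lk R' (b - 120)) 0) && !Nat.beq (lk S (b - 120)) 0) = true := by
  decide +kernel

/-- a bit vector -/
def bv (L : List Bool) (i : ℕ) : ℤ := bif L.getD i false then 1 else 0

/-- the classes of the coroot lattice modulo `2` -/
def idk (L : List Bool) : Bool := ((List.range 7).all fun i => decide (bv L i = 0)) ||
  ((List.range 7).all fun i => decide (bv L i = zc i)) || (List.range' 63 63).any fun r =>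
    ((List.range 7).all fun i => decide ((bv L i - cor r i) % 2 = 0)) ||
      ((List.range 7).all fun i => decide ((bv L i - (cor r i + zc i)) % 2 = 0))

theorem chk_idem : ∀ a0 a1 a2 a3 a4 a5 a6 : Bool, idk [a0, a1, a2, a3, a4, a5, a6] = true := by decide +kernel

/-- the positive roots which are orthogonal to a positive root -/
def OMT : List ℕ := [
  82932351176550449505206821926136184832, 80800055351162215508790855470086619136, 81510160100925412141992412379778908160,
  76576985882750910907599911734743138304, 77979401604370112846287889085627367424, 78681596212530975398223244670936285184,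
  68792661156099453351345482499214016512, 71296464365876343320323728949905457152, 72553478028077368613412198937165561856,
  73182944985460340634546820641053474816, 53127591567868157485726793261408845824, 58190143099064497114728161464805228544,
  60670946056332730501321553414792937472, 61906237257812013679137779260434939904, 62522926297072222795408920925031104512,
  74478296037078114455833127696258301952, 69415744503986506313128912259530096640, 66934941541128822883184844177259102208,
  65699650334350853163512599812671275008, 65082961291920911051667750169901793280, 58813226446707236675632899053873790976,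
  56309423231368042596734942267704344576, 55052409563922622628652385355108974592, 54422942603478501345667918860268863488,
  51028901713003467222168886194764513280, 49626485986546066363463404053527003136, 48924291376136446059631367947229855744,
  46805832236948008301493025227902287872, 46095727487721418617405267867844214784, 44673536414221594750782340361233629184,
  21266998895460715723618953730983985152, 31860572420017874609151549473332133888, 36922999743158018740660428204849233920,
  39403436394606921526521070229643067392, 40638380344349797698004294916900913152, 41254861650540040205987327349364883456,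
  37546067047358467124493413081321308160, 35041899308804641464537345560246484992, 33784541954832212529471065869843955712,
  33154874391736920716897046904025645056, 29761280143219182758406360066206728192, 28358547350491178650144071175228096512,
  27656205377943199251576314654084825088, 25537709715132670661083940376574689280, 24827640142668789658902172508409036800,
  23405588350151031984326713018903691264, 19128733958923132701484647609771491328, 17706195393180821765784450873170067456,
  16994908877924950038021886904725667840, 14873857631558872793959480305666490368, 14166343642632369959713283081678880768,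
  12753236392713481700525860975248670720, 9338878034243601096309118105397755904, 8667674628568432470633460887464181760,
  7327241787289827005830878995517800448, 4656921177537968803739039028809302016, 615819906126565927065398734586118144,
  567687369703774643313285377933967360, 473403397587626822607964755887915008, 295384091489535388835734102648815616,
  40899449400859903430832693461385216, 649017309654835499088992194789376, 9903520305059670162338217984]

/-- the positive roots which are orthogonal to a positive root -/
def OM (r : ℕ) : ℕ := OMT.getD (r - 63) 0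

theorem chk_OM : ((List.range' 63 63).all fun r => let R := OM r
    (List.range' 63 63).all fun s => R.testBit s == (!Nat.beq s r && decide (pr r s % 2 = 0))) = true := by decide +kernel

theorem OM_iff {r s : ℕ} (hr : 63 ≤ r ∧ r < 126) (hs : 63 ≤ s ∧ s < 126) :
    (OM r).testBit s = true ↔ s ≠ r ∧ pr r s % 2 = 0 := by
  have h := List.all_eq_true.1 (List.all_eq_true.1 chk_OM r (List.mem_range'_1.2 hr)) s (List.mem_range'_1.2 hs)
  rw [beq_iff_eq.1 h, Bool.and_eq_true, decide_eq_true_eq, Bool.not_eq_true', ← Bool.not_eq_true, Nat.beq_eq]

/-- the search -/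
def chk : ℕ → ℕ → ℕ → Bool
  | 0, _, m => Nat.beq m 0
  | d + 1, lo, m => !Nat.beq m 0 && (List.range' lo (126 - lo)).all fun s => !m.testBit s || chk d (s + 1) (m &&& OM s)

theorem chk_realised : True := by have := @chk.eq_def; trivial

theorem chk_true : chk 7 63 ((2 ^ 63 - 1) * 2 ^ 63) = true := by decide +kernel

theorem chk_sound : ∀ (d lo m : ℕ) (l : List ℕ), chk d lo m = true → l.Pairwise (· < ·) →
    (∀ s ∈ l, lo ≤ s ∧ s < 126 ∧ m.testBit s = true) → (∀ r ∈ l, ∀ s ∈ l, r < s → (OM r).testBit s = true) →
    l.length = d ∨ ∃ δ, m.testBit δ = true ∧ ∀ s ∈ l, (OM s).testBit δ = true := by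
  intro d
  induction d with
  | zero =>
    intro lo m l h _ h2 _
    rcases l with _ | ⟨s, l⟩
    · exact Or.inl rfl
    · have h4 := (h2 s List.mem_cons_self).2.2
      rw [Nat.eq_of_beq_eq_true h, Nat.zero_testBit] at h4
      exact absurd h4 (by simp)
  | succ d ih =>
    intro lo m l h h1 h2 h3
    rw [chk, Bool.and_eq_true] at h
    rcases l with _ | ⟨s, l⟩
    · have h4 : m ≠ 0 := fun e => by rw [e] at h; exact absurd h.1 (by simp)
      obtain ⟨δ, hδ⟩ := Nat.exists_testBit_of_ne_zero h4
      exact Or.inr ⟨δ, hδ, fun _ hs => absurd hs List.not_mem_nil⟩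
    · obtain ⟨a1, a2, a3⟩ := h2 s List.mem_cons_self
      have h4 := List.all_eq_true.1 h.2 s (List.mem_range'_1.2 ⟨a1, by omega⟩)
      rw [a3, Bool.not_true, Bool.false_or] at h4
      rw [List.pairwise_cons] at h1
      rcases ih _ _ l h4 h1.2 (fun t ht => ⟨h1.1 t ht, (h2 t (List.mem_cons_of_mem _ ht)).2.1, by
        rw [Nat.testBit_and, (h2 t (List.mem_cons_of_mem _ ht)).2.2,
          h3 s List.mem_cons_self t (List.mem_cons_of_mem _ ht) (h1.1 t ht)]; rfl⟩)
        (fun r hr t ht => h3 r (List.mem_cons_of_mem _ hr) t (List.mem_cons_of_mem _ ht)) with h5 | ⟨δ, h5, h6⟩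
      · exact Or.inl (by rw [List.length_cons, h5])
      · rw [Nat.testBit_and, Bool.and_eq_true] at h5
        exact Or.inr ⟨δ, h5.1, fun t ht => (List.mem_cons.1 ht).elim (fun e => e ▸ h5.2) (h6 t)⟩

theorem full_iff (s : ℕ) : ((2 ^ 63 - 1) * 2 ^ 63).testBit s = true ↔ 63 ≤ s ∧ s < 126 := by
  rw [Nat.testBit_mul_two_pow, Nat.testBit_two_pow_sub_one, Bool.and_eq_true, decide_eq_true_eq, decide_eq_true_eq]
  omega

/-- **maximal sets of orthogonal roots** -/
theorem card_seven (Y : Finset ℕ) (h1 : ∀ r ∈ Y, 63 ≤ r ∧ r < 126) (h2 : ∀ r ∈ Y, ∀ s ∈ Y, pr r s % 2 = 0) :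
    Y.card = 7 ∨ ∃ δ < 126, ∀ r ∈ Y, δ ≠ 125 - r ∧ δ ≠ r ∧ pr r δ % 2 = 0 := by
  rcases chk_sound 7 63 _ (Y.sort (· ≤ ·)) chk_true (Y.sortedLT_sort).pairwise
    (fun s hs => ⟨(h1 s ((Finset.mem_sort _).1 hs)).1, (h1 s ((Finset.mem_sort _).1 hs)).2,
      (full_iff s).2 (h1 s ((Finset.mem_sort _).1 hs))⟩)
    (fun r hr s hs h => (OM_iff (h1 r ((Finset.mem_sort _).1 hr)) (h1 s ((Finset.mem_sort _).1 hs))).2
      ⟨h.ne', h2 r ((Finset.mem_sort _).1 hr) s ((Finset.mem_sort _).1 hs)⟩) with h | ⟨δ, h3, h4⟩
  · exact Or.inl (by rw [← h, Finset.length_sort])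
  · have h5 := (full_iff δ).1 h3
    refine Or.inr ⟨δ, h5.2, fun r hr => ⟨?_, (OM_iff (h1 r hr) h5).1 (h4 r ((Finset.mem_sort _).2 hr))⟩⟩
    have := h1 r hr
    omega

end Cfsg.Agent.E7P.Cb
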