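import Cfsg.Agent.E7P.P2.CbRoot
import Cfsg.Agent.H334.Symp.ModelSetup

/-!
# S5932, `p = 2`, Case 1: the action on a root subalgebra (helper23)

* `act`, `mono`, `line0` : involutions which fix a coroot;
* `ker_u`, `rval_zero`, `line` : a group `SL₂(K)` which fixes a coroot;
* `exists_E` : the exponential of a commuting family.
-/

set_option autoImplicit false
set_option maxRecDepth 100000

namespace Cfsg.Agent.E7P.Cb

open Cfsg Cfsg.Lie Matrix Module
open Cfsg.Agent.H943.E7V.Block (D1 rho)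
open Cfsg.Agent.R2.T1 Cfsg.Agent.E7P.Kf Cfsg.Agent.E7P.Br Cfsg.Agent.E7P.P2 Cfsg.Agent.E7P.La
open Cfsg.Agent.R2.PX (del Hd)
open Cfsg.Agent.R2.T1.N6D (cast_even)
open Cfsg.Agent.H943.SL2Rel (u u_add u_zero)

universe u v

variable {k : Type u} [Field k] {r : Fin chevE7.nroots}

theorem hv_ne (r : Fin chevE7.nroots) : hv k r ≠ 0 := fun h => Hd_ne (K := k) r.2 (by rw [← del_hv, h, map_zero])

theorem v3_inj {a b c a' b' c' : k} (h : v3 r a b c = v3 r a' b' c') : a = a' ∧ b = b' ∧ c = c' := by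
  have h1 : a = a' := by rw [← v3_fst r a b c, h, v3_fst]
  have h2 : b = b' := by rw [← v3_snd r a b c, h, v3_snd]
  subst h1 h2
  exact ⟨rfl, rfl, smul_left_injective k (hv_ne r) (add_left_cancel h)⟩

theorem er_mem (h2 : (2 : k) = 0) (r : Fin chevE7.nroots) : er k r ∈ Nr (hv k r) :=
  v3_e (K := k) r ▸ v3_mem h2 r (by rw [mul_zero, mul_zero])

theorem er_mem' (h2 : (2 : k) = 0) (r : Fin chevE7.nroots) : er k (ng r) ∈ Nr (hv k r) :=
  v3_f (K := k) r ▸ v3_mem h2 r (by rw [zero_mul, zero_mul])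

theorem Nr_fix {w : Gh k} {e x : chevE7.Idx → k} (hw : adM k w *ᵥ e = e) (h : x ∈ Nr e) : adM k w *ᵥ x ∈ Nr e :=
  hw ▸ Nr_adM w h

theorem cm_hv (l : Fin 7 → k) (r : ℕ) : del k (tv l) * Hd k r = Hd k r * del k (tv l) := by
  rw [del_tv, Hd, diagonal_mul_diagonal, diagonal_mul_diagonal]
  exact congrArg diagonal (funext fun _ => mul_comm _ _)

theorem br_v3 (h2 : (2 : k) = 0) (l : Fin 7 → k) (a b c : k) :
    br k (tv l) (v3 r a b c) = v3 r (rval r (tv l) * a) (rval r (tv l) * b) 0 := by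
  have hr : r.val < 126 := r.2
  have h1 := tv_NM l hr
  have h3 := tv_NM l (show 125 - r.val < 126 by omega)
  rw [rval_neg hr, neg_smul, neg_eq h2] at h3
  apply Mu.del_injective
  rw [del_br, del_v3, del_v3, mul_comm _ a, mul_comm _ b, mul_smul, mul_smul, ← h1, ← h3]
  simp only [mul_add, add_mul, Matrix.mul_smul, Matrix.smul_mul, cm_hv, smul_sub, zero_smul]
  abel

/-- the elements of the root subalgebra commute with the orthogonal roots -/
theorem cm_NM (h2 : (2 : k) = 0) {s : ℕ} (hs : s < 126) (h1 : s ≠ 125 - r) (h3 : s ≠ r) (h : rval s (hv k r) = 0)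
    (a b c : k) : del k (v3 r a b c) * NM k s = NM k s * del k (v3 r a b c) := by
  have hr : r.val < 126 := r.2
  have h4 := NM_cm h2 hr hs h1 h
  have h5 := NM_cm h2 (show 125 - r.val < 126 by omega) hs (by omega) (by rw [hv_neg hr, rval_neg', h, neg_zero])
  have h6 := tv_cm hs h
  rw [show tv _ = hv k r from rfl, del_hv] at h6
  simp only [del_v3, mul_add, add_mul, Matrix.mul_smul, Matrix.smul_mul, h4, h5, h6]

theorem not_cm (h2 : (2 : k) = 0) {a b c : k} (h : c * c = a * b) (h0 : v3 r a b c ≠ 0) :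
    ∃ a' b', ¬ Cm (v3 r a b c) (v3 r a' b' 0) := by
  have hr : r.val < 126 := r.2
  have hr' : 125 - r.val < 126 := by omega
  by_contra hc
  push Not at hc
  have key : ∀ a' b', a * b' + b * a' = 0 := fun a' b' => by
    have h1 := hc a' b'
    have h3 := Hd_NM' h2 hr'
    rw [Hd_neg h2 hr] at h3
    rw [Cm, del_v3, del_v3] at h1
    refine (smul_eq_zero.1 (?_ : _ • Hd k r = 0)).resolve_right (Hd_ne hr)
    rw [← NM_add h2 hr]
    simp only [mul_add, add_mul, Matrix.mul_smul, Matrix.smul_mul, NM_sq hr, NM_sq hr', Hd_NM' h2 hr, h3, smul_smul,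
      zero_smul, smul_zero, zero_mul, mul_zero] at h1
    have h4 := add_self' h2 ((a * b') • (NM k (125 - r) * NM k r))
    have h5 := add_self' h2 ((b * a') • (NM k r * NM k (125 - r)))
    linear_combination (norm := module) h1 + h4 + h5
  have ha : a = 0 := by simpa using key 0 1
  have hb : b = 0 := by simpa using key 1 0
  have hc : c = 0 := mul_self_eq_zero.1 (by rw [h, ha, zero_mul])
  exact h0 (by rw [ha, hb, hc, v3_h, zero_smul])

section
variable [IsAlgClosed k] (h2 : (2 : k) = 0) {w : Gh k} (hw : adM k w *ᵥ hv k r = hv k r)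
include h2 hw

/-- the matrix of an element which fixes the coroot -/
theorem act : ∃ a b c a' b' c' : k, c * c = a * b ∧ c' * c' = a' * b' ∧
    ∀ s t d, adM k w *ᵥ v3 r s t d = v3 r (s * a + t * a') (s * b + t * b') (s * c + t * c' + d) := by
  obtain ⟨a, b, c, h1, h3⟩ := Nr_hv h2 r (Nr_fix hw (er_mem h2 r))
  obtain ⟨a', b', c', h4, h5⟩ := Nr_hv h2 r (Nr_fix hw (er_mem' h2 r))
  refine ⟨a, b, c, a', b', c', h1, h4, fun s t d => ?_⟩
  rw [v3, mulVec_add, mulVec_add, mulVec_smul, mulVec_smul, mulVec_smul, h3, h5, hw, ← v3_h, v3_smul, v3_smul, v3_add,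
    v3_add, add_zero, add_zero]

variable (hw2 : w * w = 1) (hne : ¬ (adM k w *ᵥ er k r = er k r ∧ adM k w *ᵥ er k (ng r) = er k (ng r)))
include hw2 hne

theorem act2 : ∃ a b c a' b' c' : k, c * c = a * b ∧ c' * c' = a' * b' ∧
    (∀ s t d, adM k w *ᵥ v3 r s t d = v3 r (s * a + t * a') (s * b + t * b') (s * c + t * c' + d)) ∧
    a * a + b * a' = 1 ∧ a * b + b * b' = 0 ∧ a' * a + b' * a' = 0 ∧ a' * b + b' * b' = 1 ∧
    ¬ (a = 1 ∧ b = 0 ∧ a' = 0 ∧ b' = 1) := by
  obtain ⟨a, b, c, a', b', c', h1, h3, h4⟩ := act h2 hw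
  have h5 : ∀ s t, v3 r s t 0 = adM k w *ᵥ (adM k w *ᵥ v3 r s t 0) := fun s t => by
    rw [← mulVec_mul, hw2, map_one, one_mulVec]
  have h6 := h5 1 0
  have h7 := h5 0 1
  simp only [h4, one_mul, zero_mul, add_zero, zero_add] at h6 h7
  refine ⟨a, b, c, a', b', c', h1, h3, h4, (v3_inj h6).1.symm, (v3_inj h6).2.1.symm, (v3_inj h7).1.symm,
    (v3_inj h7).2.1.symm, ?_⟩
  rintro ⟨rfl, rfl, rfl, rfl⟩
  rw [mul_zero, mul_self_eq_zero] at h1
  rw [zero_mul, mul_self_eq_zero] at h3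
  refine hne ⟨?_, ?_⟩
  · rw [← v3_e, h4, h1, h3]; simp
  · rw [← v3_f, h4, h1, h3]; simp

/-- an involution which fixes a toral element as well -/
theorem mono {l : Fin 7 → k} (hl : adM k w *ᵥ tv l = tv l) (h0 : rval r (tv l) ≠ 0) :
    ∃ b, b ≠ 0 ∧ adM k w *ᵥ v3 r 1 0 0 = v3 r 0 b 0 := by
  obtain ⟨a, b, c, a', b', c', h1, h3, h4, h5, h6, h7, h8, h9⟩ := act2 h2 hw hw2 hne
  have key : ∀ s t, s * c + t * c' = 0 := fun s t => by
    have h10 := adM_br' w (tv l) (v3 r s t 0)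
    rw [hl, br_v3 h2, h4, h4, br_v3 h2] at h10
    exact mul_left_cancel₀ h0 (by linear_combination (v3_inj h10).2.2)
  have hc : c = 0 := by simpa using key 1 0
  have hc' : c' = 0 := by simpa using key 0 1
  subst hc hc'
  have hb : b ≠ 0 := by
    rintro rfl
    have ha : a = 1 := sq_inj h2 (by linear_combination h5)
    have hb : b' = 1 := sq_inj h2 (by linear_combination h8)
    exact h9 ⟨ha, rfl, by rw [hb] at h3; linear_combination -h3, hb⟩
  have ha : a = 0 := mul_right_cancel₀ hb (by linear_combination -h1)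
  exact ⟨b, hb, by rw [h4, ha]; simp⟩

/-- the fixed points of an involution on the cone -/
theorem line0 : ∃ n ∈ Nr (hv k r), n ≠ 0 ∧ adM k w *ᵥ n = n ∧ ∀ x ∈ Nr (hv k r), adM k w *ᵥ x = x → ∃ c : k, x = c • n := by
  obtain ⟨a, b, c, a', b', c', h1, h3, h4, h5, h6, h7, h8, h9⟩ := act2 h2 hw hw2 hne
  obtain ⟨s, t, h0, hs, ht⟩ : ∃ s t : k, ¬ (s = 0 ∧ t = 0) ∧ s * a + t * a' = s ∧ s * b + t * b' = t := by
    by_cases e : a + 1 = 0 ∧ b = 0
    · exact ⟨1, 0, fun h => one_ne_zero h.1, by linear_combination e.1 - h2, by linear_combination e.2⟩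
    · exact ⟨a + 1, b, e, by linear_combination h5, by linear_combination h6⟩
  obtain ⟨d, hd⟩ := IsAlgClosed.exists_eq_mul_self (s * t)
  have hn := v3_mem h2 r hd.symm
  refine ⟨v3 r s t d, hn, fun h => h0 ?_, ?_, fun x hx hx' => ?_⟩
  · rw [← zero_smul k (hv k r), ← v3_h] at h
    exact ⟨(v3_inj h).1, (v3_inj h).2.1⟩
  · obtain ⟨s', t', d', h10, h11⟩ := Nr_hv h2 r (Nr_fix hw hn)
    have h12 := v3_inj ((h4 s t d).symm.trans h11)
    rw [hs, ht] at h12
    rw [h11, ← h12.1, ← h12.2.1, sq_inj h2 (a := d') (b := d) (by rw [h10, ← hd, h12.1, h12.2.1])]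
  obtain ⟨s', t', d', h10, rfl⟩ := Nr_hv h2 r hx
  obtain ⟨hs', ht', -⟩ := v3_inj ((h4 s' t' d').symm.trans hx')
  have hD : s' * t = t' * s := by
    by_contra hD
    have h11 := sub_ne_zero.2 hD
    exact h9 ⟨mul_left_cancel₀ h11 (by linear_combination t * hs' - t' * hs),
      mul_left_cancel₀ h11 (by linear_combination t * ht' - t' * ht),
      mul_left_cancel₀ h11 (by linear_combination s' * hs - s * hs'),
      mul_left_cancel₀ h11 (by linear_combination s' * ht - s * ht')⟩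
  obtain ⟨m, rfl, rfl⟩ : ∃ m, s' = m * s ∧ t' = m * t := by
    by_cases e : s = 0
    · have e' : t ≠ 0 := fun e' => h0 ⟨e, e'⟩
      exact ⟨t' / t, mul_right_cancel₀ e' (by rw [hD, e, mul_zero, mul_zero, zero_mul]), (div_mul_cancel₀ _ e').symm⟩
    · exact ⟨s' / s, (div_mul_cancel₀ _ e).symm, mul_right_cancel₀ e (by field_simp; linear_combination -hD)⟩
  exact ⟨m, by rw [v3_smul, sq_inj h2 (a := d') (b := m * d) (by linear_combination h10 + m * m * hd)]⟩

end

section
variable [IsAlgClosed k] (h2 : (2 : k) = 0) {K : Type v} [Field K] [Fintype K] (h2K : (2 : K) = 0)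
  (h4 : 3 < Fintype.card K) {φ : SpecialLinearGroup (Fin 2) K →* Gh k} (hφ : ∀ x, adM k (φ x) *ᵥ hv k r = hv k r)
  (hne : ¬ ∀ x, adM k (φ x) *ᵥ er k r = er k r)

include h2K in
omit [Fintype K] in
theorem u_sq (t : K) : φ (u t) * φ (u t) = 1 := by rw [← map_mul, ← u_add, add_self' h2K, u_zero, map_one]

include h2 h4 hφ hne

/-- the group acts faithfully on the root subalgebra -/
theorem ker_u {t : K} (ht : t ≠ 0) :
    ¬ (adM k (φ (u t)) *ᵥ er k r = er k r ∧ adM k (φ (u t)) *ᵥ er k (ng r) = er k (ng r)) := by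
  intro h
  let N : Subgroup (SpecialLinearGroup (Fin 2) K) :=
    { carrier := {x | ∀ y ∈ Nr (hv k r), adM k (φ x) *ᵥ y = y}
      one_mem' := fun y _ => by rw [map_one, map_one, one_mulVec]
      mul_mem' := fun ha hb y hy => by rw [map_mul, mulVec_mul, hb y hy, ha y hy]
      inv_mem' := fun {c} hc y hy => by
        conv_lhs => rw [← hc y hy]
        rw [map_inv, mulVec_inv] }
  have hN : N.Normal := ⟨fun x hx g y hy => by
    rw [map_mul, mulVec_mul, map_mul, mulVec_mul, hx _ (Nr_fix (hφ _) hy), map_inv, mulVec_inv']⟩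
  rcases H334.Symp.El.sl_normal h4 N hN with h1 | h1
  · exact hne fun x => (h1 ▸ Subgroup.mem_top x : x ∈ N) _ (er_mem h2 r)
  have h3 : u t ∈ N := fun y hy => by
    obtain ⟨a, b, c, -, rfl⟩ := Nr_hv h2 r hy
    rw [v3, mulVec_add, mulVec_add, mulVec_smul, mulVec_smul, mulVec_smul, h.1, h.2, hφ]
  have h5 : ((H943.SL2Rel.w : SpecialLinearGroup (Fin 2) K).1 * (u t).1) 0 0 =
      ((u t).1 * (H943.SL2Rel.w : SpecialLinearGroup (Fin 2) K).1) 0 0 :=
    congrArg (fun m : SpecialLinearGroup (Fin 2) K => m.1 0 0) (Subgroup.mem_center_iff.1 (h1 h3) H943.SL2Rel.w)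
  simp [u, H943.SL2Rel.w, Matrix.mul_apply, Fin.sum_univ_two] at h5
  exact ht h5

include h2K

/-- the root vanishes on the fixed toral elements -/
theorem rval_zero {l : Fin 7 → k} (hl : ∀ x, adM k (φ x) *ᵥ tv l = tv l) : rval r (tv l) = 0 := by
  by_contra h0
  have key : ∀ t : K, t ≠ 0 → ∃ b, b ≠ 0 ∧ adM k (φ (u t)) *ᵥ v3 r 1 0 0 = v3 r 0 b 0 := fun t ht =>
    mono h2 (hφ _) (u_sq h2K t) (ker_u h2 h4 hφ hne ht) (hl _) h0
  classical
  obtain ⟨t, -, ht⟩ := Finset.exists_mem_notMem_of_card_lt_card (s := ({0, -1} : Finset K)) (t := Finset.univ)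
    (Finset.card_le_two.trans_lt (by rw [Finset.card_univ]; omega))
  rw [Finset.mem_insert, Finset.mem_singleton, not_or] at ht
  obtain ⟨b1, h1, e1⟩ := key 1 one_ne_zero
  obtain ⟨b2, -, e2⟩ := key t ht.1
  obtain ⟨b3, -, e3⟩ := key (t + 1) fun e => ht.2 (eq_neg_of_add_eq_zero_left e)
  have h5 : b2 • adM k (φ (u 1)) *ᵥ v3 r 1 0 0 = b1 • adM k (φ (u t)) *ᵥ v3 r 1 0 0 := by
    rw [e1, e2, v3_smul, v3_smul, mul_zero, mul_zero, mul_comm]
  have h6 := congrArg (adM k (φ (u t)) *ᵥ ·) h5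
  simp only [mulVec_smul, ← mulVec_mul] at h6
  rw [u_sq h2K, ← map_mul, ← u_add, e3, map_one, one_mulVec, v3_smul, v3_smul] at h6
  exact h1 (by simpa using (v3_inj h6).1.symm)

/-- the fixed line of `U` in the cone -/
theorem line : ∃ n ∈ Nr (hv k r), n ≠ 0 ∧ (∀ t, adM k (φ (u t)) *ᵥ n = n) ∧
    ∀ x ∈ Nr (hv k r), adM k (φ (u 1)) *ᵥ x = x → ∃ c : k, x = c • n := by
  obtain ⟨n, h1, h0, h3, h5⟩ := line0 h2 (hφ _) (u_sq h2K 1) (ker_u h2 h4 hφ hne one_ne_zero)
  refine ⟨n, h1, h0, fun t => ?_, h5⟩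
  obtain ⟨c, hc⟩ := h5 _ (Nr_fix (hφ (u t)) h1) (by
    rw [← mulVec_mul, ← map_mul, ← u_add, add_comm, u_add, map_mul, mulVec_mul, h3])
  have h6 : (c * c) • n = (1 * 1 : k) • n := by
    rw [mul_smul, ← hc, ← mulVec_smul, ← hc, ← mulVec_mul, u_sq h2K, map_one, one_mulVec, one_mul, one_smul]
  rw [hc, sq_inj h2 (smul_left_injective k h0 h6), one_smul]

end

theorem fix_of_rho {y : Gh k} {z x : chevE7.Idx → k} (hy : rho k y = 1 + del k z) : adM k y *ᵥ x = x ↔ Cm z x := by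
  rw [fix_iff, hy, add_mul, mul_add, one_mul, mul_one, add_right_inj, Cm]

theorem Cm_smul {z x : chevE7.Idx → k} (t : k) (h : Cm z x) : Cm (t • z) x := by
  rw [Cm, map_smul, Matrix.smul_mul, Matrix.mul_smul, h]

/-- **the exponential of a commuting family** -/
theorem exists_E {ι : Type} [Fintype ι] {n x : ι → chevE7.Idx → k} (h1 : ∀ i (t : k), ∃ y, rho k y = 1 + del k (t • n i))
    (h2 : ∀ i j, Cm (n i) (n j)) (h3 : ∀ i, del k (n i) * del k (n i) = 0) (h4 : ∀ i j, i ≠ j → Cm (n i) (x j))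
    (h5 : ∀ i, ¬ Cm (n i) (x i)) : LinearIndependent k n ∧ ∃ E : Multiplicative (chevE7.Idx → k) →* Gh k,
      (∀ i (t : k), rho k (E (.ofAdd (t • n i))) = 1 + del k (t • n i)) ∧
      ∀ z ∈ Submodule.span k (Set.range n), E (.ofAdd z) = 1 → z = 0 := by
  classical
  have h6 : ∀ i (t : k), Cm (t • n i) (x i) → t = 0 := fun i t h => of_not_not fun ht => h5 i (by
    have h7 := Cm_smul t⁻¹ h
    rwa [inv_smul_smul₀ ht] at h7)
  have hli : LinearIndependent k n := Fintype.linearIndependent_iff.2 fun t ht j => h6 j _ (by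
    rw [← Finset.add_sum_erase _ _ (Finset.mem_univ j), add_eq_zero_iff_eq_neg] at ht
    rw [ht, ← br_eq_zero, map_neg, map_sum, LinearMap.neg_apply, LinearMap.sum_apply, neg_eq_zero]
    exact Finset.sum_eq_zero fun i hi => br_eq_zero.2 (Cm_smul _ (h4 i j (Finset.ne_of_mem_erase hi))))
  refine ⟨hli, ?_⟩
  choose y hy using h1
  let Y : ι → Multiplicative k →* Gh k := fun i => MonoidHom.mk' (fun t => y i t.toAdd) fun s t => rho_injective (by
    simp only [map_mul, hy, toAdd_mul, add_smul, map_add, map_smul, add_mul, mul_add, one_mul, mul_one,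
      smul_mul_smul_comm, h3, smul_zero]
    abel)
  have hY : Pairwise fun i j => ∀ s t, Commute (Y i s) (Y j t) := fun i j _ s t => rho_injective (by
    show rho k (y i _ * y j _) = rho k (y j _ * y i _)
    have h7 : del k (n i) * del k (n j) = _ := h2 i j
    simp only [map_mul, hy, map_smul, add_mul, mul_add, one_mul, mul_one, smul_mul_smul_comm, h7, mul_comm s.toAdd]
    abel)
  obtain ⟨lam, hl⟩ := (Fintype.linearCombination k n).exists_leftInverse_of_injective
    (LinearMap.ker_eq_bot.2 (linearIndependent_iff_injective_fintypeLinearCombination.1 hli))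
  let E : Multiplicative (chevE7.Idx → k) →* Gh k := MonoidHom.mk'
    (fun z => MonoidHom.noncommPiCoprod Y hY fun i => .ofAdd (lam z.toAdd i)) fun z z' => by
      rw [← map_mul, toAdd_mul, map_add]
      rfl
  have hE : ∀ i (t : k), E (.ofAdd (t • n i)) = y i t := fun i t => by
    have h7 : lam (t • n i) = Pi.single i t := by
      rw [← Fintype.linearCombination_apply_single k n i t]
      exact LinearMap.congr_fun hl _
    have h8 : (fun j => Multiplicative.ofAdd (lam (t • n i) j)) = Pi.mulSingle i (.ofAdd t) := funext fun j => by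
      rw [h7]
      by_cases e : j = i
      · rw [e, Pi.single_eq_same, Pi.mulSingle_eq_same]
      · rw [Pi.single_eq_of_ne e, Pi.mulSingle_eq_of_ne e, ofAdd_zero]
    show MonoidHom.noncommPiCoprod Y hY (fun j => Multiplicative.ofAdd (lam (t • n i) j)) = _
    rw [h8, MonoidHom.noncommPiCoprod_mulSingle]
    rfl
  refine ⟨E, fun i t => by rw [hE, hy], fun z hz h0 => ?_⟩
  obtain ⟨t, rfl⟩ := (Submodule.mem_span_range_iff_exists_fun k).1 hz
  refine Finset.sum_eq_zero fun j _ => ?_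
  rw [h6 j (t j), zero_smul]
  rw [← Finset.add_sum_erase _ _ (Finset.mem_univ j), ofAdd_add, map_mul] at h0
  have h7 : adM k (E (.ofAdd (∑ i ∈ Finset.univ.erase j, t i • n i))) *ᵥ x j = x j :=
    Finset.sum_induction _ (fun z => adM k (E (.ofAdd z)) *ᵥ x j = x j)
      (fun a b ha hb => by rw [ofAdd_add, map_mul, mulVec_mul, hb, ha]) (by rw [ofAdd_zero, map_one, map_one, one_mulVec])
      fun i hi => by rw [hE, fix_of_rho (hy _ _)]; exact Cm_smul _ (h4 i j (Finset.ne_of_mem_erase hi))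
  rw [← fix_of_rho (hy _ _), ← hE]
  conv_lhs => rw [← h7]
  rw [← mulVec_mul, h0, map_one, one_mulVec]

end Cfsg.Agent.E7P.Cb
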