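import Cfsg.Agent.E7P.P2.CbLoc
import Cfsg.Agent.E7P.Base.EqU
import Cfsg.Agent.R2.H8.NoFix.Desc

/-!
# S5932, `p = 2`, Case 1: the fixed points of `A` on the Lie algebra are central (helper23)

* `Sit.cb_count` : seven commuting root lines give `a = 7 b`;
* `Sit.fixZ_of` : if `A` fixes no nilpotent element then its fixed points are central.
-/

set_option autoImplicit false
set_option maxRecDepth 100000

namespace Cfsg.Agent.E7P.Sit

open Cfsg Cfsg.Lie Matrix Module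
open Cfsg.Agent.H943.E7V.Block (D1 rho)
open Cfsg.Agent.R2.T1 Cfsg.Agent.E7P.Kf Cfsg.Agent.E7P.Br Cfsg.Agent.E7P.P2 Cfsg.Agent.E7P.La Cfsg.Agent.E7P.Cb
open Cfsg.Agent.R2.PX (del Hd)
open Cfsg.Agent.R2.T1.N6D (Zc mem_Zc zv del_zv Zc_eq cast_even mem_of_fixed)
open Cfsg.Agent.R2.T2.Alg (zc)
open Cfsg.Agent.H943.SL2Rel (u h u_add u_zero h_u)
open Cfsg.Agent.R2.H8.NoFix.Desc (exists_fixed rat finrank_rat)

universe u v

variable {p a b : ℕ} {F : Type u} {K : Type v} {k : Type u} [Field F] [Fintype F] [Field K] [Fintype K] [Field k]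
  (S : Sit p a b F K k)

/-- the union of the cones of the fixed idempotents -/
def cbG (x : chevE7.Idx → k) : Prop := ∃ e ∈ S.C, del k e * del k e = del k e ∧ del k e ≠ 1 ∧ x ∈ Nr e

variable {S} in
theorem cbG.M {x : chevE7.Idx → k} (hx : S.cbG x) {m : Gh k} (hm : m ∈ S.M) : S.cbG (adM k m *ᵥ x) := by
  obtain ⟨e, h1, h2, h3, h4⟩ := hx
  refine ⟨_, S.stb_C.1 m hm e h1, ?_, fun h5 => h3 ?_, Nr_adM m h4⟩
  · rw [del_adM']
    simp only [mul_assoc, rho_inv_mul]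
    rw [← mul_assoc (del k e), h2]
  · rw [← mulVec_inv (adM k) m e, del_adM', h5, mul_one, rho_mul_inv]

variable {S} in
theorem cbG.sv {x : chevE7.Idx → k} (hx : S.cbG x) : S.cbG (S.sv x) := by
  obtain ⟨e, h1, h2, h3, h4⟩ := hx
  have h5 : del k (S.sv e) = (del k e).map S.s := (del_map S.s e).symm
  refine ⟨_, S.stb_C.2 e h1, by rw [h5, ← Matrix.map_mul, h2], fun h6 => h3 ?_, Nr_map S.s h4⟩
  exact Matrix.map_injective S.s.injective ((h5.symm.trans h6).trans (Matrix.map_one _ (map_zero _) (map_one _)).symm)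

theorem cb_sv_add (x y : chevE7.Idx → k) : S.sv (x + y) = S.sv x + S.sv y := funext fun _ => map_add S.s _ _

theorem cb_sv_smul (t : k) (x : chevE7.Idx → k) : S.sv (t • x) = S.s t • S.sv x := funext fun _ => map_mul S.s _ _

theorem cb_sv_zero : S.sv (0 : chevE7.Idx → k) = 0 := funext fun _ => map_zero S.s

/-- **seven commuting root lines** -/
theorem cb_count (hp : p = 2) {ι : Type} [Fintype ι] (h7 : Fintype.card ι = 7) {n x : ι → chevE7.Idx → k}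
    (h1 : ∀ i (t : k), ∃ y, rho k y = 1 + del k (t • n i)) (h2 : ∀ i j, Cm (n i) (n j))
    (h3 : ∀ i, del k (n i) * del k (n i) = 0) (h4 : ∀ i j, i ≠ j → Cm (n i) (x j)) (h5 : ∀ i, ¬ Cm (n i) (x i))
    (hG : ∀ i, S.cbG (n i)) (hU : ∀ i t, adM k (S.ψ (u t)) *ᵥ n i = n i)
    (hu : ∀ z, S.cbG z → adM k (S.ψ (u 1)) *ᵥ z = z → ∃ (j : ι) (c : k), z = c • n j)
    (hC : ∀ i, ∀ y ∈ S.C, Cm (n i) y) : S.FixZ := by
  intro y hy
  have h2k := S.two hp
  obtain ⟨hli, E, hE, hinj⟩ := exists_E h1 h2 h3 h4 h5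
  generalize hZ : Submodule.span k (Set.range n) = Z at hinj
  have hn : ∀ i (t : k), t • n i ∈ Z := fun i t => hZ ▸ Submodule.smul_mem _ _ (Submodule.subset_span ⟨i, rfl⟩)
  have ind : ∀ P : (chevE7.Idx → k) → Prop, P 0 → (∀ z z', P z → P z' → P (z + z')) → (∀ i (t : k), P (t • n i)) →
      ∀ z ∈ Z, P z := fun P h0 ha hs z hz => by
    obtain ⟨t, rfl⟩ := (Submodule.mem_span_range_iff_exists_fun k).1 (hZ ▸ hz)
    exact Finset.sum_induction _ P ha h0 fun i _ => hs i _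
  have E0 : E (.ofAdd 0) = 1 := map_one E
  have Ea : ∀ z z', E (.ofAdd (z + z')) = E (.ofAdd z) * E (.ofAdd z') := fun z z' => map_mul E _ _
  have hconj : ∀ m, (∀ i, ∃ (j : ι) (c : k), adM k m *ᵥ n i = c • n j) → ∀ z ∈ Z, adM k m *ᵥ z ∈ Z ∧
      m * E (.ofAdd z) * m⁻¹ = E (.ofAdd (adM k m *ᵥ z)) := fun m hm =>
    ind _ (by rw [mulVec_zero, E0, mul_one, mul_inv_cancel]; exact ⟨zero_mem _, rfl⟩)
      (fun z z' h h' => by
        rw [mulVec_add, Ea, Ea, ← h.2, ← h'.2]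
        exact ⟨add_mem h.1 h'.1, by group⟩) fun i t => by
      obtain ⟨j, c, e⟩ := hm i
      have e' : adM k m *ᵥ (t • n i) = (t * c) • n j := by rw [mulVec_smul, e, smul_smul]
      refine ⟨e' ▸ hn j _, rho_injective ?_⟩
      rw [e', hE, ← e', map_mul, map_mul, hE, del_adM', mul_add, add_mul, mul_one, rho_mul_inv]
  have hsv : ∀ z ∈ Z, S.sv z ∈ Z ∧ S.σ (E (.ofAdd z)) = E (.ofAdd (S.sv z)) :=
    ind _ (by rw [cb_sv_zero, E0, map_one]; exact ⟨zero_mem _, rfl⟩)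
      (fun z z' h h' => by
        rw [cb_sv_add, Ea, Ea, map_mul, h.2, h'.2]
        exact ⟨add_mem h.1 h'.1, rfl⟩) fun i t => by
      obtain ⟨j, c, e⟩ := hu _ (hG i).sv (by rw [← S.k_σ_ψ, ← S.sv_mulVec wrep_L, hU])
      have e' : S.sv (t • n i) = (S.s t * c) • n j := by rw [cb_sv_smul, e, smul_smul]
      refine ⟨e' ▸ hn j _, rho_injective ?_⟩
      rw [e', hE, ← e']
      refine (rho_emb S.s _).trans ?_
      rw [hE, Matrix.map_add _ (map_add S.s), Matrix.map_one _ (map_zero _) (map_one _), del_map]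
      rfl
  have hD : ∀ z ∈ Z, E (.ofAdd z) ∈ Fx (adM k) S.C :=
    ind _ (E0 ▸ one_mem _) (fun z z' h h' => Ea z z' ▸ mul_mem h h') fun i t y hy =>
      (fix_of_rho (hE i t)).2 (Cm_smul t (hC i y hy))
  have hcm : ∀ t, ∀ z ∈ Z, S.ψ (u t) * E (.ofAdd z) = E (.ofAdd z) * S.ψ (u t) := fun t z hz => by
    rw [← mul_inv_eq_iff_eq_mul, (hconj _ (fun i => ⟨i, 1, by rw [hU, one_smul]⟩) z hz).2,
      ind (fun z => adM k (S.ψ (u t)) *ᵥ z = z) (mulVec_zero _) (fun z z' h h' => by rw [mulVec_add, h, h'])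
        (fun i c => by rw [mulVec_smul, hU]) z hz]
  have hT : ∀ c, ∀ z ∈ Z, S.sv z = z → ∃ z' ∈ Z, S.sv z' = z' ∧
      S.ψ (h c) * E (.ofAdd z) * (S.ψ (h c))⁻¹ = E (.ofAdd z') := fun c z hz hs => by
    have h6 := hconj _ (fun i => hu _ ((hG i).M (S.k_ψ_mem (h c))) (by
      obtain ⟨t, ht⟩ := S.ψ_h_norm c⁻¹ (x := S.ψ (u 1)) ⟨1, rfl⟩
      rw [H943.SL2Rel.h_inv, map_inv, inv_inv] at ht
      rw [← mulVec_mul, show S.ψ (u 1) * S.ψ (h c) = S.ψ (h c) * S.ψ (u t) by rw [← ht]; group, mulVec_mul, hU])) z hz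
    exact ⟨_, h6.1, by rw [S.sv_mulVec wrep_L, S.k_σ_ψ, hs], h6.2⟩
  rcases S.fix_le_M (D := Fx (adM k) S.C) (fun m hm e he z hz => by
    rw [mulVec_mul, mulVec_mul, he _ (S.stb_C.1 _ (inv_mem hm) z hz), mulVec_inv']) with hM | hM
  swap
  · refine mem_of_fixed h2k fun g => ?_
    have h6 := mem_of_gens (S := Fx (adM k) (Submodule.span k {y})) (fun r hr t => by
      intro z hz
      obtain ⟨c, rfl⟩ := Submodule.mem_span_singleton.1 hz
      have h8 : ∀ t : k, rho k (xs k r t) = 1 + del k (t • er k ⟨r, hr⟩) := fun t => by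
        rw [rho_xs' hr, map_smul, del_er]
      have h9 := hM (xs F r 1) y hy
      rw [emb_xs, map_one, fix_of_rho (h8 1), one_smul] at h9
      rw [mulVec_smul, (fix_of_rho (h8 t)).2 (Cm_smul t h9)]) g
    rw [L_adM, toLin'_apply, h6 y (Submodule.mem_span_singleton_self y), sub_self]
    exact zero_mem _
  exfalso
  have hE2 : ∀ z, E (.ofAdd z) * E (.ofAdd z) = 1 := fun z => by rw [← Ea, add_self' h2k, E0]
  have hmul : ∀ z z', z' ∈ Z → ∀ t t', E (.ofAdd z) * S.ψ (u t) * (E (.ofAdd z') * S.ψ (u t')) =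
      E (.ofAdd (z + z')) * S.ψ (u (t + t')) := fun z z' hz' t t' => by
    rw [Ea, u_add, map_mul, mul_assoc, ← mul_assoc (S.ψ (u t)), hcm t z' hz']
    group
  have hsq : ∀ z ∈ Z, ∀ t, E (.ofAdd z) * S.ψ (u t) * (E (.ofAdd z) * S.ψ (u t)) = 1 := fun z hz t => by
    rw [hmul z z hz, add_self' h2k, add_self' (S.twoK hp), E0, u_zero, map_one, one_mul]
  let Q : Subgroup (Gh k) :=
    { carrier := {y | ∃ z ∈ Z, S.sv z = z ∧ ∃ t, y = E (.ofAdd z) * S.ψ (u t)}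
      one_mem' := ⟨0, zero_mem _, S.cb_sv_zero, 0, by rw [E0, u_zero, map_one, one_mul]⟩
      mul_mem' := by
        rintro _ _ ⟨z, hz, hs, t, rfl⟩ ⟨z', hz', hs', t', rfl⟩
        exact ⟨_, add_mem hz hz', by rw [cb_sv_add, hs, hs'], _, hmul z z' hz' t t'⟩
      inv_mem' := by
        rintro _ ⟨z, hz, hs, t, rfl⟩
        exact ⟨z, hz, hs, t, inv_eq_of_mul_eq_one_right (hsq z hz t)⟩ }
  have hQ : Q = S.U := S.eq_U (by
      rintro ⟨_, z, hz, -, t, rfl⟩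
      exact ⟨1, Subtype.ext (by subst hp; rw [pow_one, pow_two]; exact hsq z hz t)⟩) (by
      rintro _ ⟨z, hz, hs, t, rfl⟩
      exact mul_mem (hM _ (hD z hz) (by rw [(hsv z hz).2, hs])) (S.k_ψ_mem _)) (by
      rintro _ ⟨t, rfl⟩
      exact ⟨0, zero_mem _, S.cb_sv_zero, t, by rw [E0, one_mul]⟩) (by
      rintro c _ ⟨z, hz, hs, t, rfl⟩
      obtain ⟨z', hz', hs', e⟩ := hT c z hz hs
      obtain ⟨t', e'⟩ := S.ψ_h_norm c (x := S.ψ (u t)) ⟨t, rfl⟩
      exact ⟨z', hz', hs', t', by rw [← e, ← e']; group⟩)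
  have hle : ∀ z ∈ Z, S.sv z = z → ∃ t, E (.ofAdd z) = S.ψ (u t) := fun z hz hs =>
    (hQ ▸ ⟨z, hz, hs, 0, by rw [u_zero, map_one, mul_one]⟩ : E (.ofAdd z) ∈ S.U)
  let Q0 : Subgroup (Gh k) :=
    { carrier := {y | ∃ z ∈ Z, S.sv z = z ∧ y = E (.ofAdd z)}
      one_mem' := ⟨0, zero_mem _, S.cb_sv_zero, E0.symm⟩
      mul_mem' := by
        rintro _ _ ⟨z, hz, hs, rfl⟩ ⟨z', hz', hs', rfl⟩
        exact ⟨_, add_mem hz hz', by rw [cb_sv_add, hs, hs'], (Ea z z').symm⟩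
      inv_mem' := by
        rintro _ ⟨z, hz, hs, rfl⟩
        exact ⟨z, hz, hs, inv_eq_of_mul_eq_one_right (hE2 z)⟩ }
  have hr : finrank k Z = 7 := by rw [← hZ, finrank_span_eq_card hli, h7]
  obtain ⟨z0, hz0, h0, hs0⟩ := exists_fixed (t := S.s) (Y := Z) (fun z hz => (hsv z hz).1) (by
    rintro rfl
    rw [finrank_bot] at hr
    omega)
  obtain ⟨t0, ht0⟩ := hle z0 hz0 (funext hs0)
  have hge : S.U ≤ Q0 := S.U_le (t := t0) (by
      rintro c _ ⟨z, hz, hs, rfl⟩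
      exact hT c z hz hs) (by
      rintro rfl
      exact h0 (hinj z0 hz0 (by rw [ht0, u_zero, map_one]))) ⟨z0, hz0, funext hs0, ht0.symm⟩
  have hs : ∀ t, S.s t = t ^ Fintype.card F := fun t => by rw [S.frob, Nat.card_eq_fintype_card]
  choose τ hτ using fun v : rat S.f Z => hle (fun i => S.f (v.1 i)) v.2
    (funext fun i => by rw [sv, hs, ← map_pow, FiniteField.pow_card])
  have hb : Function.Bijective τ := by
    refine ⟨fun v v' e => Subtype.ext (funext fun i => S.f.injective ?_), fun t => ?_⟩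
    · have h6 := hinj _ (add_mem v.2 v'.2) (by rw [Ea, hτ, e, ← hτ, hE2])
      rw [add_eq_zero_iff_eq_neg, neg_eq h2k] at h6
      exact congrFun h6 i
    · obtain ⟨z, hz, h6, e⟩ := hge ⟨t, rfl⟩
      choose v hv using fun i => H65.E6Emb.mem_range_of_pow S.f ((hs _).symm.trans (congrFun h6 i))
      obtain rfl : (fun i => S.f (v i)) = z := funext hv
      exact ⟨⟨v, hz⟩, S.ψ_u_inj ((hτ ⟨v, hz⟩).symm.trans e.symm)⟩
  have h8 := Nat.card_eq_of_bijective τ hb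
  rw [Module.natCard_eq_pow_finrank (K := F), finrank_rat S.f hs fun z hz => (hsv z hz).1, hr, Nat.card_eq_fintype_card,
    Nat.card_eq_fintype_card, S.cardF, S.cardK, ← pow_mul] at h8
  exact S.ne7 (by rw [← Nat.pow_right_injective S.prime.two_le h8, mul_comm])

section
variable {g : Gh k}

/-- the conjugate of `ψ` -/
noncomputable def cbφ (g : Gh k) : SpecialLinearGroup (Fin 2) K →* Gh k := (MulAut.conj g⁻¹).toMonoidHom.comp S.ψ

theorem cb_act (x : SpecialLinearGroup (Fin 2) K) (z : chevE7.Idx → k) :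
    adM k (S.ψ x) *ᵥ (adM k g *ᵥ z) = adM k g *ᵥ (adM k (S.cbφ g x) *ᵥ z) := by
  rw [show S.cbφ g x = g⁻¹ * S.ψ x * g⁻¹⁻¹ from rfl, mulVec_mul, mulVec_mul, mulVec_inv', inv_inv]

theorem cb_fix {z : chevE7.Idx → k} (hz : adM k g *ᵥ z ∈ S.C) (x : SpecialLinearGroup (Fin 2) K) :
    adM k (S.cbφ g x) *ᵥ z = z := by
  rw [← mulVec_inv (adM k) g (_ *ᵥ z), ← cb_act, hz x, mulVec_inv]

theorem cb_ne (hn : ∀ y ∈ S.C, IsNilpotent (del k y) → y = 0) (r : Fin chevE7.nroots) :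
    ¬ ∀ x, adM k (S.cbφ g x) *ᵥ er k r = er k r := fun h => er_ne (K := k) r (by
  rw [← mulVec_inv (adM k) g (er k r), hn _ (fun x => by rw [cb_act, h])
    (eqv2.nilp g ⟨2, by rw [del_er, pow_two, NM_sq r.2]⟩), mulVec_zero])

variable (hp : p = 2) (hg : ∀ x ∈ S.C, ∃ l, x = adM k g *ᵥ tv l)
include hp hg

omit hg in
theorem cb_zv {z : chevE7.Idx → k} (hz : adM k g *ᵥ (z + zv k) ∈ S.C) : adM k g *ᵥ z ∈ S.C := by
  have h1 : zv k ∈ Zc k := Zc_eq (S.two hp) ▸ Submodule.mem_span_singleton_self _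
  rw [mulVec_add, adM_Zc h1] at hz
  exact (Submodule.add_mem_iff_left _ (S.Zc_le_C h1)).1 hz

/-- the cones of the fixed idempotents -/
theorem cb_cl {x : chevE7.Idx → k} (hx : S.cbG x) :
    x = 0 ∨ ∃ r, 63 ≤ r ∧ r < 126 ∧ adM k g *ᵥ hv k r ∈ S.C ∧ ∃ z ∈ Nr (hv k r), x = adM k g *ᵥ z := by
  have h2 := S.two hp
  obtain ⟨e, h1, h3, h4, h5⟩ := hx
  obtain ⟨l, rfl⟩ := hg e h1
  obtain ⟨z, rfl⟩ : ∃ z, x = adM k g *ᵥ z := ⟨_, (mulVec_inv' (adM k) g x).symm⟩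
  have h6 := Nr_adM g⁻¹ h5
  rw [mulVec_inv, mulVec_inv] at h6
  have h7 := congrArg (adM k g⁻¹ *ᵥ ·) ((sq_eq_self h2).2 h3)
  simp only [← adM_sq h2, mulVec_inv, sq_tv h2] at h7
  rcases idem_cases h2 (l := l) (fun i => congrFun h7 (Sum.inl i)) with e | e | ⟨r, h8, h9, e | e⟩ <;> rw [e] at h1 h4 h6
  · left
    rw [Mu.del_inj (z := z) (by rw [← h6.1, map_zero, mul_zero]), mulVec_zero]
  · exact absurd (by rw [del_adM', del_zv h2, mul_one, rho_mul_inv]) h4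
  · exact Or.inr ⟨r, h8, h9, h1, z, h6, rfl⟩
  · left
    rw [Nr_hv_zv h2 h9 h6, mulVec_zero]

theorem cb_nonempty {y : chevE7.Idx → k} (hy : y ∈ S.C) (h0 : y ∉ Zc k) :
    ∃ r, 63 ≤ r ∧ r < 126 ∧ adM k g *ᵥ hv k r ∈ S.C := by
  have h2 := S.two hp
  have : CharP k 2 := CharTwo.of_one_ne_zero_of_two_eq_zero one_ne_zero h2
  have ta : ∀ l l' : Fin 7 → k, tv (l + l') = tv l + tv l' := fun l l' => funext fun i => by
    rcases i with i | s
    · rfl
    · exact (add_zero _).symm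
  have ts : ∀ (c : k) (l : Fin 7 → k), tv (c • l) = c • tv l := fun c l => funext fun i => by
    rcases i with i | s
    · rfl
    · exact (mul_zero _).symm
  let Y : Submodule k (Fin 7 → k) :=
    { carrier := {l | adM k g *ᵥ tv l ∈ S.C ∧ l 6 = 0}
      zero_mem' := ⟨by rw [← zero_smul k (0 : Fin 7 → k), ts, zero_smul, mulVec_zero]; exact zero_mem _, rfl⟩
      add_mem' := fun h h' => ⟨by rw [ta, mulVec_add]; exact add_mem h.1 h'.1, by rw [Pi.add_apply, h.2, h'.2, add_zero]⟩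
      smul_mem' := fun c _ h => ⟨by rw [ts, mulVec_smul]; exact Submodule.smul_mem _ _ h.1, by
        rw [Pi.smul_apply, h.2, smul_zero]⟩ }
  have hz : zv k ∈ Zc k := Zc_eq h2 ▸ Submodule.mem_span_singleton_self _
  have hz' : zv k = tv fun i => (zc i : k) := rfl
  obtain ⟨l, ⟨h1, h6⟩, h3, h4⟩ := exists_fixed (t := frobenius k 2) (Y := Y) (fun l hl => ⟨by
      have h5 := S.sq_mem_C hp hl.1
      rw [← adM_sq h2, sq_tv h2] at h5
      simpa only [frobenius_def, pow_two] using h5, (congrArg _ hl.2).trans (map_zero _)⟩) fun hY => by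
    obtain ⟨l, rfl⟩ := hg y hy
    have h1 : l + l 6 • (fun i : Fin 7 => (zc i : k)) ∈ Y := ⟨by
      rw [ta, ts, ← hz', mulVec_add, adM_Zc (Submodule.smul_mem _ _ hz)]
      exact add_mem hy (S.Zc_le_C (Submodule.smul_mem _ _ hz)), by
      show l 6 + l 6 * ((1 : ℤ) : k) = 0
      rw [Int.cast_one, mul_one, add_self' h2]⟩
    rw [hY, Submodule.mem_bot, add_eq_zero_iff_eq_neg, neg_eq h2] at h1
    exact h0 (by rw [adM_mem_Zc, h1, ts]; exact Submodule.smul_mem _ _ hz)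
  rcases idem_cases h2 (l := l) (fun i => by rw [← pow_two]; exact h4 i) with e | e | ⟨r, h8, h9, e | e⟩
  · exact absurd (funext fun i => congrFun e (Sum.inl i)) h3
  · have h5 : l 6 = ((1 : ℤ) : k) := congrFun e (Sum.inl (6 : Fin 7))
    rw [h6, Int.cast_one] at h5
    exact absurd h5 zero_ne_one
  · exact ⟨r, h8, h9, e ▸ h1⟩
  · exact ⟨r, h8, h9, S.cb_zv hp (e ▸ h1)⟩

end

/-- **Case 1 does not occur** -/
theorem fixZ_of (hp : p = 2) (hn : ∀ y ∈ S.C, IsNilpotent (del k y) → y = 0) : S.FixZ := by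
  classical
  intro y hy
  by_contra h0
  have := S.closed
  have h2 := S.two hp
  have h4 : 3 < Fintype.card K := S.k_four
  obtain ⟨g, hg⟩ := toral eqv2 S.C (fun x hx x' hx' z hz => (Mu.del_injective ((del_br x x').trans hz.symm)) ▸
    S.br_mem_C hx hx') (fun x hx s z hj c => (hj.fix eqv2 (hx c)).2) hn
  let Y := (Finset.Ico 63 126).filter fun r => adM k g *ᵥ hv k r ∈ S.C
  have hY : ∀ {r}, r ∈ Y ↔ (63 ≤ r ∧ r < 126) ∧ adM k g *ᵥ hv k r ∈ S.C := by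
    intro r
    rw [Finset.mem_filter, Finset.mem_Ico]
  obtain ⟨r0, a1, a2, a3⟩ := S.cb_nonempty hp hg hy h0
  have hG : ∀ r < 126, adM k g *ᵥ hv k r ∈ S.C → ∀ z ∈ Nr (hv k r), S.cbG (adM k g *ᵥ z) := fun r hr h1 z hz =>
    ⟨_, h1, (sq_eq_self h2).1 (by rw [← adM_sq h2, (sq_eq_self h2).2 (by rw [del_hv, Hd_Hd h2 hr])]), fun e =>
      Hd_ne_one (K := k) hr (by rw [← del_hv, ← mulVec_inv (adM k) g (hv k r), del_adM', e, mul_one, rho_mul_inv]),
      Nr_adM g hz⟩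
  have hB : ∀ r ∈ Y, ∀ l, adM k g *ᵥ tv l ∈ S.C → rval r (tv l) = 0 := fun r hr l hl =>
    rval_zero h2 (S.twoK hp) h4 (r := ⟨r, (hY.1 hr).1.2⟩) (S.cb_fix (hY.1 hr).2) (S.cb_ne hn _) (S.cb_fix hl)
  rcases card_seven Y (fun r hr => (hY.1 hr).1) (fun r hr s hs => even_of_cast h2
    ((rval_hv r s).symm.trans (hB s hs _ (hY.1 hr).2))) with h7 | ⟨δ, hδ, h7⟩
  swap
  · have h8 : rho k (xs k δ 1) = 1 + del k (er k ⟨δ, hδ⟩) := by rw [rho_xs' hδ, one_smul, del_er]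
    have h9 := S.pt2 hp wrep_L (Submodule.span k {x | S.cbG x}) ⟨fun m hm x hx =>
      Submodule.span_induction (fun z hz => Submodule.subset_span (cbG.M hz hm)) (by rw [mulVec_zero]; exact zero_mem _)
        (fun _ _ _ _ e e' => by rw [mulVec_add]; exact add_mem e e')
        (fun _ _ _ e => by rw [mulVec_smul]; exact Submodule.smul_mem _ _ e) hx, fun x hx =>
      Submodule.span_induction (fun z hz => Submodule.subset_span (cbG.sv hz)) (by rw [cb_sv_zero]; exact zero_mem _)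
        (fun _ _ _ _ e e' => by rw [cb_sv_add]; exact add_mem e e')
        (fun _ _ _ e => by rw [cb_sv_smul]; exact Submodule.smul_mem _ _ e) hx⟩ (by
        obtain ⟨x, hx⟩ := not_forall.1 (S.cb_ne (g := g) hn ⟨r0, a2⟩)
        refine ⟨x, _, Submodule.subset_span (hG r0 a2 a3 _ (er_mem h2 ⟨r0, a2⟩)), fun e => hx ?_⟩
        rw [← mulVec_inv (adM k) g (_ *ᵥ _), ← cb_act, e, mulVec_inv]) (g * xs k δ 1 * g⁻¹) (fun x hx =>
      Submodule.span_induction (fun z hz => by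
          rcases S.cb_cl hp hg hz with rfl | ⟨r, b1, b2, b3, z, b4, rfl⟩
          · exact mulVec_zero _
          obtain ⟨a, b, c, -, rfl⟩ := Nr_hv h2 ⟨r, b2⟩ b4
          obtain ⟨c1, c2, c3⟩ := h7 r (hY.2 ⟨⟨b1, b2⟩, b3⟩)
          rw [mulVec_mul, mulVec_mul, mulVec_inv, (fix_of_rho h8).2 ?_]
          rw [Cm, del_er]
          exact (cm_NM h2 (r := ⟨r, b2⟩) hδ c1 c2 ((rval_hv r δ).trans (cast_even h2 c3)) a b c).symm)
        (mulVec_zero _) (fun _ _ _ _ e e' => by rw [mulVec_add, e, e']) (fun _ _ _ e => by rw [mulVec_smul, e]) hx) (by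
      subst hp
      rw [conj_pow, pow_two, xs_mul, add_self' h2, xs_zero, mul_one, mul_inv_cancel])
    exact S.not_cent_xs hp (g := g) hδ one_ne_zero fun x => by rw [h9, mul_one, one_mul]
  let R : Y → Fin chevE7.nroots := fun i => ⟨i.1, (hY.1 i.2).1.2⟩
  choose n b1 b2 b3 b4 using fun i : Y => line h2 (S.twoK hp) h4 (r := R i) (S.cb_fix (hY.1 i.2).2) (S.cb_ne hn _)
  choose α β γ c1 c2 using fun i => Nr_hv h2 (R i) (b1 i)
  choose α' β' c3 using fun i => not_cm h2 (c1 i) (c2 i ▸ b2 i)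
  have hc : ∀ i j : Y, i ≠ j → ∀ a b c a' b' c' : k, Cm (v3 (R i) a b c) (v3 (R j) a' b' c') := by
    intro i j hij a b c a' b' c'
    have d1 := hY.1 i.2
    have d2 := hY.1 j.2
    have d3 : j.1 ≠ i.1 := fun e => hij (Subtype.ext e.symm)
    have d4 := hB j j.2 _ d1.2
    have e1 := cm_NM h2 (r := R i) d2.1.2 (show j.1 ≠ 125 - i.1 by omega) d3 d4 a b c
    have e2 := cm_NM h2 (r := R i) (show 125 - j.1 < 126 by omega) (show 125 - j.1 ≠ 125 - i.1 by omega)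
      (show 125 - j.1 ≠ i.1 by omega) (by rw [rval_neg d2.1.2, neg_eq_zero]; exact d4) a b c
    have e3 := br_v3 h2 (r := R i) (fun s => (cor j s : k)) a b c
    rw [hB i i.2 _ d2.2, zero_mul, zero_mul, v3_h, zero_smul, br_eq_zero, Cm, show tv _ = hv k j from rfl, del_hv] at e3
    rw [Cm, del_v3 (R j)]
    simp only [mul_add, add_mul, Matrix.mul_smul, Matrix.smul_mul]
    rw [e1, e2, e3]
  refine h0 (S.cb_count hp (ι := Y) (n := fun i => adM k g *ᵥ n i) (x := fun i => adM k g *ᵥ v3 (R i) (α' i) (β' i) 0)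
    ((Fintype.card_coe Y).trans h7) (fun i t => ?_) (fun i j => eqv2.cm g ?_) (fun i => (Nr_adM g (b1 i)).2)
    (fun i j hij => eqv2.cm g (c2 i ▸ hc i j hij _ _ _ _ _ _)) (fun i e => c3 i ?_)
    (fun i => hG i (R i).2 (hY.1 i.2).2 _ (b1 i)) (fun i t => by rw [cb_act, b3]) (fun z hz e => ?_) (fun i z hz => ?_) y hy)
  · obtain ⟨w, hw⟩ := exists_rho h2 (R i) (a := t * α i) (b := t * β i) (c := t * γ i) (by linear_combination t * t * c1 i)
    refine ⟨g * w * g⁻¹, ?_⟩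
    rw [map_mul, map_mul, hw, ← mulVec_smul, del_adM', c2, v3_smul, mul_add, add_mul, mul_one, rho_mul_inv]
  · by_cases e : i = j
    · rw [e, Cm]
    · rw [c2, c2]
      exact hc i j e _ _ _ _ _ _
  · have e1 := eqv2.cm g⁻¹ e
    rwa [mulVec_inv, mulVec_inv, c2] at e1
  · rcases S.cb_cl hp hg hz with rfl | ⟨r, d1, d2, d3, z, d4, rfl⟩
    · exact ⟨⟨r0, hY.2 ⟨⟨a1, a2⟩, a3⟩⟩, 0, (zero_smul _ _).symm⟩
    obtain ⟨c, hc⟩ := b4 ⟨r, hY.2 ⟨⟨d1, d2⟩, d3⟩⟩ z d4 (by rw [← mulVec_inv (adM k) g (_ *ᵥ _), ← cb_act, e, mulVec_inv])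
    exact ⟨_, c, by rw [hc, mulVec_smul]⟩
  · obtain ⟨l, rfl⟩ := hg z hz
    refine eqv2.cm g (Eq.symm ?_)
    have e3 := br_v3 h2 (r := R i) l (α i) (β i) (γ i)
    rwa [hB i i.2 _ hz, zero_mul, zero_mul, v3_h, zero_smul, br_eq_zero, ← c2] at e3

end Cfsg.Agent.E7P.Sit
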