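import Cfsg.Agent.E7P.P2.CbChk
import Cfsg.Agent.E7P.Lie.ATor
import Cfsg.Agent.E7P.Br.Pi

/-!
# S5932, `p = 2`, Case 1: the root subalgebra of an idempotent (helper23)

* `hv r` : the coroot; `v3 r a b c` : the elements of the root subalgebra; `Nr e` : the cone of an idempotent `e`;
* `Nr_hv`, `Nr_hv_zv`, `idem_cases`, `exists_rho`.
-/

set_option autoImplicit false
set_option maxRecDepth 100000

namespace Cfsg.Agent.E7P.Cb

open Cfsg Cfsg.Lie Matrix Module
open Cfsg.Agent.H943.E7V.Block (D1 rho)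
open Cfsg.Agent.R2.T1 Cfsg.Agent.E7P.Kf Cfsg.Agent.E7P.Br Cfsg.Agent.E7P.P2 Cfsg.Agent.E7P.La
open Cfsg.Agent.R2.PX (del Hd lk PT PC W56 wr)
open Cfsg.Agent.R2.T1.N6D (Zc mem_Zc zv del_zv Zc_eq cast_even)
open Cfsg.Agent.R2.T2.Alg (zc)

universe u

variable {K : Type u} [Field K]

variable (K) in
/-- the coroot -/
def hv (r : ℕ) : chevE7.Idx → K := tv fun i => (cor r i : K)

theorem del_hv (r : ℕ) : del K (hv K r) = Hd K r := by
  rw [hv, del_tv', R2.PX.Hd_eq]
  rfl

theorem del_er (r : Fin chevE7.nroots) : del K (er K r) = NM K r := R2.PX.del_inr r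

theorem rval_hv (r s : ℕ) : rval s (hv K r) = (pr r s : K) := by
  rw [pr, sum7]
  push_cast
  rfl

theorem rval_neg {s : ℕ} (hs : s < 126) (x : chevE7.Idx → K) : rval (125 - s) x = -rval s x := by
  rw [rval_def, rval_def, ← Finset.sum_neg_distrib]
  exact Finset.sum_congr rfl fun i _ => by rw [chk_neg s hs i i.2, Int.cast_neg, neg_mul]

theorem hv_neg {r : ℕ} (hr : r < 126) : hv K (125 - r) = -hv K r := by
  funext i
  rcases i with i | s
  · show ((cor (125 - r) i : ℤ) : K) = -((cor r i : ℤ) : K)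
    rw [chk_corneg r hr i i.2, Int.cast_neg]
  · exact neg_zero.symm

theorem rval_neg' (s : ℕ) (x : chevE7.Idx → K) : rval s (-x) = -rval s x := by
  rw [rval_def, rval_def, ← Finset.sum_neg_distrib]
  exact Finset.sum_congr rfl fun i _ => by rw [Pi.neg_apply, mul_neg]

theorem cast_odd (h2 : (2 : K) = 0) {a : ℤ} (h : a % 2 = 1) : (a : K) = 1 := by
  have h1 := cast_even h2 (a := a - 1) (by omega)
  rwa [Int.cast_sub, Int.cast_one, sub_eq_zero] at h1

theorem even_of_cast (h2 : (2 : K) = 0) {a : ℤ} (h : (a : K) = 0) : a % 2 = 0 := by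
  by_contra h1
  rw [cast_odd h2 (by omega)] at h
  exact one_ne_zero h

theorem sq_inj (h2 : (2 : K) = 0) {a b : K} (h : a * a = b * b) : a = b := by
  have h1 : (a - b) * (a - b) = 0 := by linear_combination h + (b * b - a * b) * h2
  exact sub_eq_zero.1 (mul_self_eq_zero.1 h1)

theorem add_self' (h2 : (2 : K) = 0) {M : Type*} [AddCommGroup M] [Module K M] (x : M) : x + x = 0 := by
  rw [← two_smul K, h2, zero_smul]

/-- orthogonal root vectors commute -/
theorem NM_cm (h2 : (2 : K) = 0) {r s : ℕ} (hr : r < 126) (hs : s < 126) (hne : s ≠ 125 - r) (h : rval s (hv K r) = 0) :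
    NM K r * NM K s = NM K s * NM K r := by
  rw [← sub_eq_zero, R2.PX.NM_comm hr hs hne]
  have h1 := List.all_eq_true.1 (List.all_eq_true.1 chk_odd r (List.mem_range.2 hr)) s (List.mem_range.2 hs)
  rw [Bool.or_eq_true, decide_eq_true_eq] at h1
  rcases h1 with h1 | h1
  · exact R2.PX.csM_zero (Nat.eq_of_beq_eq_true h1)
  · rw [rval_hv, cast_odd h2 h1] at h
    exact absurd h one_ne_zero

theorem tv_cm {l : Fin 7 → K} {s : ℕ} (hs : s < 126) (h : rval s (tv l) = 0) :
    del K (tv l) * NM K s = NM K s * del K (tv l) := by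
  rw [← sub_eq_zero, tv_NM l hs, h, zero_smul]

theorem Hd_NM' (h2 : (2 : K) = 0) {r : ℕ} (hr : r < 126) : Hd K r * NM K r = NM K r * Hd K r := by
  rw [← del_hv]
  exact tv_cm hr ((rval_hv r r).trans (cast_even h2 (by rw [(chk_self r hr).1]; rfl)))

theorem NM_Hd (h2 : (2 : K) = 0) {r : ℕ} (hr : r < 126) : NM K r * Hd K r = NM K r := by
  rw [← Hd_NM' h2 hr, R2.PX.Hd_NM hr]

theorem Hd_neg (h2 : (2 : K) = 0) {r : ℕ} (hr : r < 126) : Hd K (125 - r) = Hd K r := by
  rw [← del_hv, ← del_hv, hv_neg hr, neg_eq h2]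

theorem NM_add (h2 : (2 : K) = 0) {r : ℕ} (hr : r < 126) : NM K r * NM K (125 - r) + NM K (125 - r) * NM K r = Hd K r := by
  rw [← R2.PX.NM_comm_neg hr, sub_eq_add_neg, neg_eq h2]

theorem Hd_Hd (h2 : (2 : K) = 0) {r : ℕ} (hr : r < 126) : Hd K r * Hd K r = Hd K r := by
  have h1 := NM_Hd h2 hr
  have h3 := NM_Hd h2 (show 125 - r < 126 by omega)
  rw [Hd_neg h2 hr] at h3
  nth_rw 1 [← NM_add h2 hr]
  rw [add_mul, mul_assoc, mul_assoc, h1, h3, NM_add h2 hr]

theorem er_ne (r : Fin chevE7.nroots) : er K r ≠ 0 := fun h => by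
  have h1 := congrFun h (Sum.inr r)
  rw [er, Pi.single_eq_same] at h1
  exact one_ne_zero h1

theorem Hd_ne {r : ℕ} (hr : r < 126) : Hd K r ≠ 0 := fun h => by
  have h1 := R2.PX.Hd_NM (F := K) hr
  rw [h, zero_mul] at h1
  exact er_ne ⟨r, hr⟩ (Mu.del_inj ((del_er _).trans h1.symm))

/-- the elements of the root subalgebra -/
def v3 (r : Fin chevE7.nroots) (a b c : K) : chevE7.Idx → K := a • er K r + b • er K (ng r) + c • hv K r

theorem del_v3 (r : Fin chevE7.nroots) (a b c : K) :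
    del K (v3 r a b c) = a • NM K r + b • NM K (125 - r) + c • Hd K r := by
  rw [v3, map_add, map_add, map_smul, map_smul, map_smul, del_er, del_er, del_hv, ng_val]

theorem ng_ne (r : Fin chevE7.nroots) : ng r ≠ r := fun h => by
  have h1 := congrArg Fin.val h
  have hr : r.val < 126 := r.2
  rw [ng_val] at h1
  omega

theorem v3_fst (r : Fin chevE7.nroots) (a b c : K) : v3 r a b c (Sum.inr r) = a := by
  simp [v3, er, hv, tv_inr, (ng_ne r).symm]

theorem v3_snd (r : Fin chevE7.nroots) (a b c : K) : v3 r a b c (Sum.inr (ng r)) = b := by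
  simp [v3, er, hv, tv_inr, ng_ne r]

theorem v3_smul (r : Fin chevE7.nroots) (t a b c : K) : t • v3 r a b c = v3 r (t * a) (t * b) (t * c) := by
  simp only [v3, smul_add, smul_smul]

theorem v3_add (r : Fin chevE7.nroots) (a b c a' b' c' : K) :
    v3 r a b c + v3 r a' b' c' = v3 r (a + a') (b + b') (c + c') := by
  simp only [v3, add_smul]
  abel

theorem v3_e (r : Fin chevE7.nroots) : v3 r (1 : K) 0 0 = er K r := by simp [v3]

theorem v3_f (r : Fin chevE7.nroots) : v3 r (0 : K) 1 0 = er K (ng r) := by simp [v3]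

theorem v3_h (r : Fin chevE7.nroots) (c : K) : v3 r 0 0 c = c • hv K r := by simp [v3]

/-- the cone of an idempotent -/
def Nr (e : chevE7.Idx → K) : Set (chevE7.Idx → K) := {x | del K x * del K e = del K x ∧ del K x * del K x = 0}

theorem Nr_adM (g : Gh K) {e x : chevE7.Idx → K} (h : x ∈ Nr e) : adM K g *ᵥ x ∈ Nr (adM K g *ᵥ e) := by
  have key : ∀ A B : Matrix D1 D1 K, rho K g * A * rho K g⁻¹ * (rho K g * B * rho K g⁻¹) = rho K g * (A * B) * rho K g⁻¹ :=
    fun A B => by simp only [mul_assoc, rho_inv_mul]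
  refine ⟨?_, ?_⟩
  · rw [del_adM', del_adM', key, h.1]
  · rw [del_adM', key, h.2, mul_zero, zero_mul]

theorem Nr_map (s : K →+* K) {e x : chevE7.Idx → K} (h : x ∈ Nr e) : (fun i => s (x i)) ∈ Nr fun i => s (e i) := by
  refine ⟨?_, ?_⟩
  · rw [← del_map, ← del_map, ← Matrix.map_mul, h.1]
  · rw [← del_map, ← Matrix.map_mul, h.2, Matrix.map_zero _ (map_zero s)]

theorem Nr_smul (t : K) {e x : chevE7.Idx → K} (h : x ∈ Nr e) : t • x ∈ Nr e :=
  ⟨by rw [map_smul, smul_mul_assoc, h.1], by rw [map_smul, smul_mul_smul_comm, h.2, smul_zero]⟩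

theorem v3_sq (h2 : (2 : K) = 0) (r : Fin chevE7.nroots) (a b : K) (l : Fin 7 → K) :
    (a • NM K r + b • NM K (125 - r) + del K (tv l)) * (a • NM K r + b • NM K (125 - r) + del K (tv l)) =
      (a * b) • Hd K r + del K (tv l) * del K (tv l) + (rval r (tv l)) • (a • NM K r + b • NM K (125 - r)) := by
  have hr : r.val < 126 := r.2
  have hr' : 125 - r.val < 126 := by omega
  have h1 := tv_NM l hr
  have h3 := tv_NM l hr'
  rw [rval_neg hr, neg_smul, neg_eq h2] at h3
  rw [sub_eq_add_neg, neg_eq h2] at h1 h3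
  rw [smul_add, smul_comm _ a, smul_comm _ b, ← h1, ← h3, ← NM_add h2 hr]
  simp only [add_mul, mul_add, smul_mul_assoc, mul_smul_comm, NM_sq hr, NM_sq hr', smul_zero, smul_add, smul_smul,
    mul_comm b a]
  abel

theorem v3_mem (h2 : (2 : K) = 0) (r : Fin chevE7.nroots) {a b c : K} (h : c * c = a * b) : v3 r a b c ∈ Nr (hv K r) := by
  have hr : r.val < 126 := r.2
  have hr' : 125 - r.val < 126 := by omega
  have h3 := NM_Hd h2 hr'
  rw [Hd_neg h2 hr] at h3
  refine ⟨?_, ?_⟩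
  · rw [del_v3, del_hv, add_mul, add_mul, smul_mul_assoc, smul_mul_assoc, smul_mul_assoc, NM_Hd h2 hr, h3, Hd_Hd h2 hr]
  · have h4 : c • Hd K r = del K (tv fun i => c * (cor r i : K)) := by
      rw [← del_hv, ← map_smul]
      congr 1
      funext i
      rcases i with i | s
      · rfl
      · exact mul_zero c
    have h5 : rval r (tv fun i => c * (cor r i : K)) = 0 := by
      have h6 : rval r (tv fun i => c * (cor r i : K)) = c * rval r (hv K r) := by
        rw [rval_def, rval_def, Finset.mul_sum]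
        exact Finset.sum_congr rfl fun i _ => mul_left_comm _ _ _
      rw [h6, rval_hv, cast_even h2 (by rw [(chk_self r hr).1]; rfl), mul_zero]
    rw [del_v3, h4, v3_sq h2, h5, zero_smul, add_zero, ← h4, smul_mul_smul_comm, Hd_Hd h2 hr, h, add_self' h2]

theorem root_zero {x : chevE7.Idx → K} {s : ℕ} (hs : s < 126) {b : D1} (hb : mv s (nn b) ≠ none)
    (h : ∀ a, del K x a b = 0) : x (Sum.inr ⟨s, hs⟩) = 0 := by
  rcases mv_spec hs b with h1 | ⟨a, c, h1, h3, -⟩
  · exact absurd h1 hb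
  · have h4 := Mu.del_entry x hs h1
    rw [h a] at h4
    exact (mul_eq_zero.1 h4.symm).resolve_right (cast_ne h3)

theorem lk_zero {r : ℕ} (hr : r < 126) (b : D1) : lk (PT.getD r 0) (nn b - 120) = 0 ↔ mv r (nn b) = none := by
  rw [R2.PX.lk_PT hr]
  refine ⟨fun h => ?_, fun h => by rw [h]; rfl⟩
  rcases mv_spec hr b with h1 | ⟨a, c, h1, -⟩
  · exact h1
  · rw [h1] at h
    have h5 := R2.PX.two_le_nn a
    unfold R2.PX.code at h
    dsimp only at h
    omega

theorem exists_D1 {b : ℕ} (hb : b ∈ W56) : ∃ a : D1, nn a = b :=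
  ⟨⟨⟨b, (R2.PX.W56_spec b hb).1⟩, (R2.PX.W56_spec b hb).2⟩, rfl⟩

theorem col0 {r s : ℕ} (hr : r < 126) (hs : s < 126) (h3 : s ≠ r) (h4 : s ≠ 125 - r) :
    ∃ b : D1, wr r (nn b) = 0 ∧ mv s (nn b) ≠ none := by
  have h1 := List.all_eq_true.1 (List.all_eq_true.1 chk_col0 r (List.mem_range.2 hr)) s (List.mem_range.2 hs)
  simp only [Bool.or_eq_true, Nat.beq_eq, h3, h4, false_or, List.any_eq_true, Bool.and_eq_true, Bool.not_eq_true',
    ← Bool.not_eq_true] at h1
  obtain ⟨b, hb, ⟨h5, h6⟩, h7⟩ := h1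
  obtain ⟨b, rfl⟩ := exists_D1 hb
  rw [lk_zero hr] at h5
  rw [lk_zero (by omega)] at h6
  rw [lk_zero hs] at h7
  refine ⟨b, ?_, h7⟩
  rcases R2.PX.wr_spec hr b with h | h | h
  · exact absurd h5 h.2.1
  · exact h.1
  · exact absurd h6 h.2.2

theorem Hd_ne_one {r : ℕ} (hr : r < 126) : Hd K r ≠ 1 := fun h => by
  obtain ⟨s, hs, h3, h4⟩ : ∃ s < 126, s ≠ r ∧ s ≠ 125 - r := by
    by_cases e : r = 0 ∨ r = 125
    · exact ⟨1, by omega, by omega, by omega⟩
    · exact ⟨0, by omega, by omega, by omega⟩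
  obtain ⟨b, h5, -⟩ := col0 hr hs h3 h4
  have h6 := congrFun (congrFun h b) b
  rw [Hd, diagonal_apply_eq, h5, Int.cast_zero, one_apply_eq] at h6
  exact zero_ne_one h6

theorem col1 {r s : ℕ} (hr : r < 126) (hs : s < 126) : ∃ b : D1, wr r (nn b) % 2 = 1 ∧ mv s (nn b) ≠ none := by
  have h1 := List.all_eq_true.1 (List.all_eq_true.1 chk_col1 r (List.mem_range.2 hr)) s (List.mem_range.2 hs)
  simp only [Nat.beq_eq, List.any_eq_true, Bool.and_eq_true, Bool.not_eq_true', ← Bool.not_eq_true] at h1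
  obtain ⟨b, hb, h5, h7⟩ := h1
  obtain ⟨b, rfl⟩ := exists_D1 hb
  rw [lk_zero hr, lk_zero (by omega)] at h5
  rw [lk_zero hs] at h7
  refine ⟨b, ?_, h7⟩
  rcases R2.PX.wr_spec hr b with h | h | h
  · rw [h.1]; rfl
  · exact absurd h.2 h5
  · rw [h.1]; rfl

theorem tv_eq_of_sq (h2 : (2 : K) = 0) {l l' : Fin 7 → K}
    (h : del K (tv l) * del K (tv l) = del K (tv l') * del K (tv l')) : tv l = tv l' := by
  apply Mu.del_injective
  rw [del_tv, del_tv, diagonal_mul_diagonal, diagonal_mul_diagonal] at h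
  rw [del_tv, del_tv]
  congr 1
  funext a
  exact sq_inj h2 (congrFun (diagonal_injective h) a)

/-- **the cone of a coroot** -/
theorem Nr_hv (h2 : (2 : K) = 0) (r : Fin chevE7.nroots) {x : chevE7.Idx → K} (h : x ∈ Nr (hv K r)) [IsAlgClosed K] :
    ∃ a b c, c * c = a * b ∧ x = v3 r a b c := by
  have hr : r.val < 126 := r.2
  have h1 : ∀ s : Fin chevE7.nroots, s ≠ r → s ≠ ng r → x (Sum.inr s) = 0 := by
    intro s h3 h4
    obtain ⟨b, h5, h6⟩ := col0 hr s.2 (fun e => h3 (Fin.ext e)) fun e => h4 (Fin.ext e)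
    refine root_zero s.2 h6 fun a => ?_
    rw [← h.1, del_hv, Hd, mul_diagonal, h5, Int.cast_zero, mul_zero]
  obtain ⟨a, b, l, hx⟩ : ∃ a b l, x = a • er K r + b • er K (ng r) + tv l := by
    refine ⟨x (Sum.inr r), x (Sum.inr (ng r)), fun i => x (Sum.inl i), funext fun i => ?_⟩
    rcases i with i | s
    · simp [er, tv_inl]
    · by_cases h3 : s = r
      · subst h3; simp [er, tv_inr, (ng_ne s).symm]
      by_cases h4 : s = ng r
      · subst h4; simp [er, tv_inr, ng_ne r]
      · simp [er, tv_inr, h3, h4, h1 s h3 h4]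
  obtain ⟨c, hc⟩ := IsAlgClosed.exists_eq_mul_self (a * b)
  have h3 := h.2
  rw [hx, map_add, map_add, map_smul, map_smul, del_er, del_er, ng_val, v3_sq h2] at h3
  have h4 : del K (tv l) * del K (tv l) = (a * b) • Hd K r := by
    ext i j
    by_cases e : i = j
    · subst e
      have h5 := congrFun (congrFun h3 i) i
      have h6 : ∀ s < 126, NM K s i i = 0 := fun s hs => of_not_not fun e => by
        have h7 := NM_ne hs e
        rw [left_eq_add] at h7
        exact rho1_ne hs (by rw [h7, map_zero])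
      simp only [Matrix.add_apply, Matrix.smul_apply, h6 _ hr, h6 _ (show 125 - r.val < 126 by omega), smul_zero, add_zero,
        Matrix.zero_apply] at h5
      rw [eq_neg_of_add_eq_zero_right h5, neg_eq h2, Matrix.smul_apply]
    · rw [del_tv, diagonal_mul_diagonal, diagonal_apply_ne _ e, Matrix.smul_apply, Hd, diagonal_apply_ne _ e, smul_zero]
  have h5 : c • hv K r = tv fun i => c * (cor r i : K) := by
    funext i
    rcases i with i | s
    · rfl
    · exact mul_zero c
  refine ⟨a, b, c, hc.symm, ?_⟩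
  rw [hx, v3, h5, tv_eq_of_sq h2 (l := l) (l' := fun i => c * (cor r i : K))]
  rw [h4, ← h5, map_smul, del_hv, smul_mul_smul_comm, Hd_Hd h2 hr, hc]

theorem Nr_hv_zv (h2 : (2 : K) = 0) {r : ℕ} (hr : r < 126) {x : chevE7.Idx → K} (h : x ∈ Nr (hv K r + zv K)) : x = 0 := by
  have h0 : del K x * Hd K r = 0 := by
    have h1 := h.1
    rwa [map_add, del_hv, del_zv h2, mul_add, mul_one, add_eq_right] at h1
  have h1 : ∀ s : Fin chevE7.nroots, x (Sum.inr s) = 0 := by
    intro s
    obtain ⟨b, h5, h6⟩ := col1 hr s.2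
    refine root_zero s.2 h6 fun a => ?_
    have h7 := congrFun (congrFun h0 a) b
    rwa [Hd, mul_diagonal, cast_odd h2 h5, mul_one] at h7
  have h3 : x = tv fun i => x (Sum.inl i) := funext fun i => by
    rcases i with i | s
    · rfl
    · exact h1 s
  have h4 : (0 : chevE7.Idx → K) = tv 0 := funext fun i => by rcases i with i | s <;> rfl
  rw [h3, h4]
  refine tv_eq_of_sq h2 ?_
  rw [← h3, h.2, ← h4, map_zero, mul_zero]

theorem sq_tv (h2 : (2 : K) = 0) (l : Fin 7 → K) : sq K (tv l) = tv fun i => l i * l i := by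
  have : CharP K 2 := CharTwo.of_one_ne_zero_of_two_eq_zero one_ne_zero h2
  apply Mu.del_injective
  rw [del_sq h2, del_tv, del_tv, diagonal_mul_diagonal]
  congr 1
  funext a
  rw [wval, wval, ← pow_two, sum_pow_char]
  refine Finset.sum_congr rfl fun i _ => ?_
  rw [mul_pow, show ((wc a i : ℤ) : K) ^ 2 = wc a i from map_intCast (frobenius K 2) _, pow_two]

/-- **the toral idempotents** -/
theorem idem_cases (h2 : (2 : K) = 0) {l : Fin 7 → K} (h : ∀ i, l i * l i = l i) :
    tv l = 0 ∨ tv l = zv K ∨ ∃ r, 63 ≤ r ∧ r < 126 ∧ (tv l = hv K r ∨ tv l = hv K r + zv K) := by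
  classical
  obtain ⟨L, hL, hl⟩ : ∃ L, idk L = true ∧ ∀ i : Fin 7, l i = (bv L i : K) := by
    refine ⟨_, chk_idem (decide (l 0 = 1)) (decide (l 1 = 1)) (decide (l 2 = 1)) (decide (l 3 = 1)) (decide (l 4 = 1))
      (decide (l 5 = 1)) (decide (l 6 = 1)), fun i => ?_⟩
    have key : ∀ j, l j = ((bif decide (l j = 1) then 1 else 0 : ℤ) : K) := fun j => by
      by_cases e : l j = 1
      · simp [e]
      · have h1 : l j = 0 := (mul_left_eq_self₀.1 (h j)).resolve_left e
        simp [h1]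
    fin_cases i <;> exact key _
  have ext : ∀ {x : chevE7.Idx → K} {c : ℕ → ℤ}, (∀ i : Fin 7, x (Sum.inl i) = (c i : K)) → (∀ s, x (Sum.inr s) = 0) →
      (∀ i ∈ List.range 7, (bv L i - c i) % 2 = 0) → tv l = x := by
    intro x c h3 h4 h5
    funext i
    rcases i with i | s
    · have h6 := cast_even h2 (h5 i (List.mem_range.2 i.2))
      rw [Int.cast_sub, sub_eq_zero] at h6
      exact (hl i).trans (h6.trans (h3 i).symm)
    · exact (h4 s).symm
  simp only [idk, Bool.or_eq_true, List.all_eq_true, List.any_eq_true, decide_eq_true_eq, List.mem_range'_1] at hL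
  rcases hL with (hL | hL) | ⟨r, hr, hL | hL⟩
  · exact Or.inl (ext (c := fun _ => 0) (fun _ => Int.cast_zero.symm) (fun _ => rfl) fun i hi => by rw [hL i hi]; rfl)
  · exact Or.inr (Or.inl (ext (c := zc) (fun _ => rfl) (fun _ => rfl) fun i hi => by rw [hL i hi, sub_self]; rfl))
  · exact Or.inr (Or.inr ⟨r, hr.1, hr.2, Or.inl (ext (c := cor r) (fun _ => rfl) (fun _ => rfl) hL)⟩)
  · exact Or.inr (Or.inr ⟨r, hr.1, hr.2, Or.inr (ext (c := fun i => cor r i + zc i) (fun _ => (Int.cast_add _ _).symm)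
      (fun _ => add_zero _) hL)⟩)

/-- the elements of the cone are root elements -/
theorem exists_rho (h2 : (2 : K) = 0) (r : Fin chevE7.nroots) {a b c : K} (h : c * c = a * b) :
    ∃ y, rho K y = 1 + del K (v3 r a b c) := by
  have hr : r.val < 126 := r.2
  have hr' : 125 - r.val < 126 := by omega
  by_cases ha : a = 0
  · have hc : c = 0 := mul_self_eq_zero.1 (by rw [h, ha, zero_mul])
    exact ⟨xs K (125 - r) b, by rw [rho_xs' hr', del_v3, ha, hc, zero_smul, zero_smul, zero_add, add_zero]⟩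
  obtain ⟨t, rfl⟩ : ∃ t, c = a * t := ⟨a⁻¹ * c, (mul_inv_cancel_left₀ ha c).symm⟩
  have hb : b = a * t * t := mul_left_cancel₀ ha (by rw [← h]; ring)
  refine ⟨xs K (125 - r) t * xs K r a * xs K (125 - r) t, ?_⟩
  have h3 := R2.PX.NM_neg_mul (F := K) hr'
  rw [sub_sub_r hr] at h3
  have h4 := add_self' h2 (t • NM K (125 - r))
  rw [map_mul, map_mul, rho_xs' hr', rho_xs' hr, del_v3, hb, ← NM_add h2 hr]
  simp only [add_mul, mul_add, smul_mul_assoc, mul_smul_comm, one_mul, mul_one, NM_sq hr', h3, smul_zero, smul_add,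
    smul_smul]
  linear_combination (norm := module) h4

end Cfsg.Agent.E7P.Cb
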