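import Cfsg.Agent.E7P.P2.HbNil
import Cfsg.Agent.R2.H9.E6.Num

/-!
# S5932, `p = 2`, Case 2b: the induction on Heisenberg subalgebras (helper92)

* `Hb.nilp_of_eig`, `Sit.hb_exists_nil` : stable subspaces contain nilpotent elements;
* `Sit.Heis`, `Sit.Mn`; `Sit.hb_case2` : Case 2 is impossible.
-/

set_option autoImplicit false
set_option maxRecDepth 100000

namespace Cfsg.Agent.E7P

open Cfsg Cfsg.Lie Matrix Module
open Cfsg.Agent.H943.E7V.Block (D1 rho)
open Cfsg.Agent.H943.RepAdd (subRep quotRep quotRep_mk)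
open Cfsg.Agent.R2.H28.SL2 (Irrd irr_of_min)
open Cfsg.Agent.R2.H6P2 (NS AltZ)
open Cfsg.Agent.R2.H9.E6 (pq pq_eq_one psl_simple exists_prim prime_dvd_psl)
open Cfsg.Agent.R2.T1 Cfsg.Agent.E7P.Kf Cfsg.Agent.E7P.Br Cfsg.Agent.E7P.P2 Cfsg.Agent.E7P.Hb
open Cfsg.Agent.R2.PX (del)
open Cfsg.Agent.R2.T1.N6D (Zc mem_Zc zv del_zv Zc_eq zv_mem finrank_Zc)

universe u v

namespace Hb

variable {K : Type u} [Field K]

variable (K) in
/-- `tv` as a linear map -/
def tvL : (Fin 7 → K) →ₗ[K] (chevE7.Idx → K) where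
  toFun := tv
  map_add' l l' := funext fun a => by
    rcases a with i | r
    · rfl
    · exact (add_zero _).symm
  map_smul' c l := funext fun a => by
    rcases a with i | r
    · rfl
    · exact (mul_zero _).symm

/-- eigenvectors whose eigenvalue has at least 8 conjugates are nilpotent -/
theorem nilp_of_eig [IsAlgClosed K] (h2 : (2 : K) = 0) {g : Gh K} {x : chevE7.Idx → K} {c : K}
    (hx : adM K g *ᵥ x = c • x) (hc : Function.Injective fun j : Fin 8 => c ^ 2 ^ j.val) : IsNilpotent (del K x) := by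
  obtain ⟨s, z, h⟩ := La.jord eqv2 x
  obtain ⟨g0, l, z0, h0, h1, h3⟩ := h.std
  have h4 : adM K g *ᵥ s = c • s := by
    have h5 := h.map eqv2 g
    rw [hx] at h5
    refine (h5.unique ⟨by rw [h.sum, smul_add], ?_, g0, c • l, c • z0, Submodule.smul_mem _ c h0, ?_, ?_⟩ eqv2).1
    · rw [← br_eq_zero, map_smul, map_smul, LinearMap.smul_apply, br_eq_zero.2 h.cm, smul_zero, smul_zero]
    · rw [h1, ← mulVec_smul]
      exact congrArg _ ((tvL K).map_smul c l).symm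
    · rw [h3, mulVec_smul]
  by_cases hs : s = 0
  · rw [h.sum, hs, zero_add]
    exact h.nilp eqv2
  exfalso
  have h5 : ∀ j, adM K g *ᵥ (sq K)^[j] s = c ^ 2 ^ j • (sq K)^[j] s := fun j => by
    induction j with
    | zero => rw [pow_zero, pow_one]; exact h4
    | succ j ih => rw [Function.iterate_succ_apply', adM_sq h2, ih, sq_smul h2, ← pow_mul, ← pow_succ]
  have h6 : ∀ j, ∃ l', (sq K)^[j] s = adM K g0 *ᵥ tv l' := fun j => by
    induction j with
    | zero => exact ⟨l, h1⟩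
    | succ j ih =>
      obtain ⟨l', hl'⟩ := ih
      refine ⟨_, by
        rw [Function.iterate_succ_apply', hl', ← adM_sq h2]
        refine congrArg _ (La.eq_tv_of_diag fun a b hab => ?_)
        rw [del_sq h2, La.del_tv, diagonal_mul_diagonal, diagonal_apply_ne _ hab]⟩
  have h7 : ∀ j, (sq K)^[j] s ≠ 0 := fun j e => hs (La.Jd.of_nilp (x := s) (z := 0)
    ⟨(add_zero _).symm, by rw [← br_eq_zero, map_zero], g0, l, 0, zero_mem _, h1, (mulVec_zero _).symm⟩ eqv2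
    ⟨2 ^ j, by rw [← del_sq_iter h2, e, map_zero]⟩)
  choose l' hl' using h6
  have h8 := End.eigenvectors_linearIndependent' (toLin' (adM K g)) _ hc (fun j => (sq K)^[j.val] s)
    fun j => ⟨End.mem_eigenspace_iff.2 (h5 j), h7 j⟩
  have h9 : LinearIndependent K fun j : Fin 8 => l' j := LinearIndependent.of_comp (toLin' (adM K g0) ∘ₗ tvL K) (by
    have e : (fun j : Fin 8 => (sq K)^[j.val] s) = (toLin' (adM K g0) ∘ₗ tvL K) ∘ fun j : Fin 8 => l' j :=
      funext fun j => hl' j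
    rwa [e] at h8)
  have h10 := h9.fintype_card_le_finrank
  rw [finrank_fintype_fun_eq_card, Fintype.card_fin, Fintype.card_fin] at h10
  omega

theorem exists_list {V : Type*} [AddCommGroup V] [Module K V] [FiniteDimensional K V] (U : Submodule K V) :
    ∃ l : List V, l.length = finrank K U ∧ (∀ u ∈ l, u ∈ U) ∧
      ∀ {M : Type u} [AddCommGroup M] [Module K M] (f : V →ₗ[K] M), (∀ u ∈ l, f u = 0) → ∀ u ∈ U, f u = 0 := by
  let e := Module.finBasis K U
  refine ⟨List.ofFn fun i => (e i : V), List.length_ofFn, fun u hu => ?_, fun f hf u hu => ?_⟩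
  · obtain ⟨i, rfl⟩ := List.mem_ofFn.1 hu
    exact (e i).2
  · have h1 : f ∘ₗ U.subtype = 0 := e.ext fun i => hf _ (List.mem_ofFn.2 ⟨i, rfl⟩)
    exact LinearMap.congr_fun h1 ⟨u, hu⟩

theorem br_Zc {z : chevE7.Idx → K} (hz : z ∈ Zc K) (x : chevE7.Idx → K) : br K z x = 0 := br_eq_zero.2 (cm_Zc hz x)

theorem br_Zc' {z : chevE7.Idx → K} (hz : z ∈ Zc K) (x : chevE7.Idx → K) : br K x z = 0 := br_eq_zero.2 (cm_Zc hz x).symm

theorem sq_Zc (h2 : (2 : K) = 0) {z : chevE7.Idx → K} (hz : z ∈ Zc K) : sq K z ∈ Zc K := by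
  obtain ⟨c, hc⟩ := mem_Zc.1 hz
  exact mem_Zc.2 ⟨c * c, by rw [del_sq h2, ← hc, smul_mul_smul_comm, mul_one]⟩

theorem exists_sq0 [IsAlgClosed K] (h2 : (2 : K) = 0) {y : chevE7.Idx → K} (hy : sq K y ∈ Zc K) :
    ∃ z ∈ Zc K, sq K (y + z) = 0 := by
  obtain ⟨c, hc⟩ := mem_Zc.1 hy
  obtain ⟨d, rfl⟩ := IsAlgClosed.exists_eq_mul_self c
  have h1 := (Zc K).smul_mem d (zv_mem h2)
  refine ⟨_, h1, Mu.del_inj ?_⟩
  rw [sq_add h2, br_Zc' h1, add_zero, map_add, ← hc, del_sq h2, map_smul, del_zv h2, smul_mul_smul_comm, mul_one,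
    ← two_smul K, h2, zero_smul]

theorem br_mem_of_sq (h2 : (2 : K) = 0) {E Y : Submodule K (chevE7.Idx → K)} (h : ∀ x ∈ E, sq K x ∈ Y)
    {x y : chevE7.Idx → K} (hx : x ∈ E) (hy : y ∈ E) : br K x y ∈ Y := by
  have h1 := sub_mem (h _ (add_mem hx hy)) (add_mem (h x hx) (h y hy))
  rwa [sq_add h2, add_sub_cancel_left] at h1

/-- the centraliser -/
def Cz (E : Submodule K (chevE7.Idx → K)) : Submodule K (chevE7.Idx → K) where
  carrier := {y | ∀ x ∈ E, br K x y = 0}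
  zero_mem' := fun _ _ => map_zero _
  add_mem' := fun h h' x hx => by rw [map_add, h x hx, h' x hx, add_zero]
  smul_mem' := fun c _ h x hx => by rw [map_smul, h x hx, smul_zero]

/-- the elements whose square lies in `Y` -/
def Pre (h2 : (2 : K) = 0) {W Y : Submodule K (chevE7.Idx → K)} (h : ∀ x ∈ W, ∀ y ∈ W, br K x y ∈ Y) :
    Submodule K (chevE7.Idx → K) where
  carrier := {x | x ∈ W ∧ sq K x ∈ Y}
  zero_mem' := ⟨zero_mem _, by rw [sq_zero h2]; exact zero_mem _⟩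
  add_mem' := fun hx hy => ⟨add_mem hx.1 hy.1, by
    rw [sq_add h2]
    exact add_mem (add_mem hx.2 hy.2) (h _ hx.1 _ hy.1)⟩
  smul_mem' := fun c _ hx => ⟨W.smul_mem c hx.1, by
    rw [sq_smul h2]
    exact Y.smul_mem _ hx.2⟩

/-- the squares -/
def Sq [IsAlgClosed K] (h2 : (2 : K) = 0) {W : Submodule K (chevE7.Idx → K)} (h : ∀ x ∈ W, ∀ y ∈ W, br K x y ∈ Zc K) :
    Submodule K (chevE7.Idx → K) where
  carrier := {y | ∃ x ∈ W, y - sq K x ∈ Zc K}
  zero_mem' := ⟨0, zero_mem _, by rw [sq_zero h2, sub_zero]; exact zero_mem _⟩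
  add_mem' := by
    rintro y y' ⟨x, hx, e⟩ ⟨x', hx', e'⟩
    refine ⟨x + x', add_mem hx hx', ?_⟩
    rw [sq_add h2, show y + y' - (sq K x + sq K x' + br K x x') = (y - sq K x) + (y' - sq K x') - br K x x' by abel]
    exact sub_mem (add_mem e e') (h x hx x' hx')
  smul_mem' := by
    rintro c y ⟨x, hx, e⟩
    obtain ⟨d, rfl⟩ := IsAlgClosed.exists_eq_mul_self c
    refine ⟨d • x, W.smul_mem d hx, ?_⟩
    rw [sq_smul h2, pow_two, ← smul_sub]
    exact Submodule.smul_mem _ _ e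

section
variable [IsAlgClosed K] (h2 : (2 : K) = 0) {E : Submodule K (chevE7.Idx → K)} (hz : Zc K ≤ E)
  (hsq : ∀ x ∈ E, sq K x ∈ Zc K)

include h2 hz hsq

theorem exists_iso (h8 : 8 ≤ finrank K E) (d : ℕ) (hd : d ≤ 4) :
    ∃ U ≤ E, (∀ x ∈ U, sq K x = 0) ∧ finrank K U = d := by
  induction d with
  | zero => exact ⟨⊥, bot_le, fun x hx => by rw [(Submodule.mem_bot K).1 hx, sq_zero h2], finrank_bot _ _⟩
  | succ d ih =>
    obtain ⟨U, h1, h3, h4⟩ := ih (by omega)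
    obtain ⟨l, h5, h6, h7⟩ := exists_list U
    have h9 := ker_line E (finrank_Zc h2) (l.map (br K)) (by
      intro f hf v hv
      obtain ⟨u, hu, rfl⟩ := List.mem_map.1 hf
      exact br_mem_of_sq h2 hsq (h1 (h6 u hu)) hv)
    rw [List.length_map, h5, h4] at h9
    obtain ⟨y, hy, hy'⟩ : ∃ y ∈ kers E (l.map (br K)), y ∉ U ⊔ Zc K := by
      by_contra hc
      push Not at hc
      have h10 := Submodule.finrank_mono (show kers E (l.map (br K)) ≤ U ⊔ Zc K from hc)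
      have h11 := Submodule.finrank_add_le_finrank_add_finrank U (Zc K)
      rw [finrank_Zc h2] at h11
      omega
    obtain ⟨z, hz', h10⟩ := exists_sq0 h2 (hsq y hy.1)
    have h11 : y + z ∉ U := fun h => hy' (by
      have h12 := sub_mem (Submodule.mem_sup_left h) (Submodule.mem_sup_right hz' : z ∈ U ⊔ Zc K)
      rwa [add_sub_cancel_right] at h12)
    refine ⟨U ⊔ Submodule.span K {y + z}, sup_le h1 ((Submodule.span_singleton_le_iff_mem _ _).2
      (add_mem hy.1 (hz hz'))), fun x hx => ?_, ?_⟩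
    · obtain ⟨u, hu, w, hw, rfl⟩ := Submodule.mem_sup.1 hx
      obtain ⟨t, rfl⟩ := Submodule.mem_span_singleton.1 hw
      have h12 : br K u y = 0 := h7 ((br K).flip y) (fun u hu => hy.2 _ (List.mem_map_of_mem hu)) u hu
      rw [sq_add h2, h3 u hu, sq_smul h2, h10, map_smul, map_add, h12, br_Zc' hz']
      simp
    · have h12 := Submodule.finrank_add_le_finrank_add_finrank U (Submodule.span K {y + z})
      rw [finrank_span_singleton fun e => h11 (by rw [e]; exact zero_mem _)] at h12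
      have h13 := Submodule.finrank_lt_finrank_of_lt (show U < U ⊔ Submodule.span K {y + z} from
        lt_of_le_of_ne le_sup_left fun e => h11 (by
          rw [e]
          exact Submodule.mem_sup_right (Submodule.mem_span_singleton_self _)))
      omega

/-- Heisenberg subalgebras are small -/
theorem heis_le (hnd : ∀ x ∈ E, x ∈ Cz E → x ∈ Zc K) : finrank K E ≤ 7 := by
  by_contra h8
  obtain ⟨U, h1, h3, h4⟩ := exists_iso h2 hz hsq (by omega) 4 le_rfl
  have h5 := le_three h2 (W := U) (fun x hx => (sq_eq_zero h2).1 (h3 x hx)) fun x hx h0 v hv => by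
    obtain ⟨y, hy, h6⟩ : ∃ y ∈ E, br K y x ≠ 0 := by
      by_contra hc
      push Not at hc
      exact h0 (eq_zero_of_Zc (hnd x (h1 hx) hc) ⟨2, by rw [pow_two, (sq_eq_zero h2).1 (h3 x hx)]⟩)
    have h7 := br_mem_of_sq h2 hsq (h1 hx) hy
    rw [Zc_eq h2, Submodule.mem_span_singleton] at h7
    obtain ⟨c, hc⟩ := h7
    refine free_of_br h2 (fun e => h6 ?_) hc.symm hv
    rw [br_anti, ← hc, e, zero_smul, neg_zero]
  omega

omit hz [IsAlgClosed K] in
/-- their centralisers are large -/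
theorem cz_big (h7 : finrank K E ≤ 7) : ¬ Cz E ≤ Zc K := by
  intro h
  obtain ⟨l, h5, h6, h8⟩ := exists_list E
  have h1 := ker_big (l.map (br K)) (by
    intro f hf v
    obtain ⟨u, hu, rfl⟩ := List.mem_map.1 hf
    rw [← br_sq h2, br_Zc (hsq u (h6 u hu))]) (by
    intro f hf g hg v
    obtain ⟨u, hu, rfl⟩ := List.mem_map.1 hf
    obtain ⟨w, hw, rfl⟩ := List.mem_map.1 hg
    rw [br_jacobi, br_Zc (br_mem_of_sq h2 hsq (h6 u hu) (h6 w hw)), zero_add])
  have h3 := Submodule.finrank_mono (show kers ⊤ (l.map (br K)) ≤ Zc K from fun y hy =>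
    h (h8 ((br K).flip y) fun u hu => hy.2 _ (List.mem_map_of_mem hu)))
  rw [finrank_Zc h2] at h3
  rw [finrank_L, List.length_map, h5] at h1
  have h4 := Nat.mul_le_mul (Nat.pow_le_pow_right two_pos h7) h3
  omega

end

end Hb

namespace Sit

variable {p a b : ℕ} {F : Type u} {K : Type v} {k : Type u} [Field F] [Fintype F] [Field K] [Fintype K] [Field k]
  (S : Sit p a b F K k)

/-- stable subspaces -/
def HbSt (W : Submodule k (chevE7.Idx → k)) : Prop := ∀ g, ∀ y ∈ W, S.RL g y ∈ W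

theorem hb_Zc {z : chevE7.Idx → k} (hz : z ∈ Zc k) (g : SpecialLinearGroup (Fin 2) K) : S.RL g z = z := by
  rw [hb_RL, adM_Zc hz]

theorem hb_br (g : SpecialLinearGroup (Fin 2) K) (x y : chevE7.Idx → k) :
    S.RL g (br k x y) = br k (S.RL g x) (S.RL g y) := by rw [hb_RL, hb_RL, hb_RL, adM_br']

theorem hb_sq (hp : p = 2) (g : SpecialLinearGroup (Fin 2) K) (x : chevE7.Idx → k) : S.RL g (sq k x) = sq k (S.RL g x) := by
  rw [hb_RL, hb_RL, adM_sq (S.two hp)]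

theorem hbSt_Zc : S.HbSt (Zc k) := fun g z hz => by rwa [S.hb_Zc hz]

theorem HbSt.cz {E : Submodule k (chevE7.Idx → k)} (h : S.HbSt E) : S.HbSt (Cz E) := fun g y hy x hx => by
  have h1 := S.hb_br g (S.RL g⁻¹ x) y
  rw [hy _ (h _ x hx), map_zero, ← End.mul_apply (S.RL g), ← map_mul, mul_inv_cancel, map_one, End.one_apply] at h1
  exact h1.symm

theorem HbSt.pre (hp : p = 2) {W Y : Submodule k (chevE7.Idx → k)} (h : ∀ x ∈ W, ∀ y ∈ W, br k x y ∈ Y) (hW : S.HbSt W)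
    (hY : S.HbSt Y) : S.HbSt (Pre (S.two hp) h) := fun g x hx => ⟨hW g x hx.1, by
  rw [← S.hb_sq hp]
  exact hY g _ hx.2⟩

/-- stable subspaces contain nilpotent elements -/
theorem hb_exists_nil (hp : p = 2) (hZ : S.FixZ) {W : Submodule k (chevE7.Idx → k)} (hW : S.HbSt W) (hne : ¬ W ≤ Zc k) :
    ∃ x ∈ W, x ∉ Zc k ∧ IsNilpotent (del k x) := by
  have := S.closed
  have h2 := S.two hp
  have h4 := S.four_le hp
  obtain ⟨r, hr, hr2, -, hra, -, hrc⟩ := exists_prim p a S.prime S.ha (by omega) (by omega)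
  have : Fact r.Prime := ⟨hr⟩
  obtain ⟨g, hg⟩ := exists_prime_orderOf_dvd_card' r ((prime_dvd_psl S.cardK hr hr2 hra).trans
    (Subgroup.card_quotient_dvd_card _))
  obtain ⟨w, hw, h1⟩ : ∃ w ∈ W, S.RL g w ≠ w := by
    by_contra hc
    push Not at hc
    have h3 : g ∈ (subRep S.RL W hW).ker := LinearMap.ext fun w => Subtype.ext (hc w w.2)
    have hs := psl_simple S.k_four
    rcases ((subRep S.RL W hW).normal_ker.map pq R2.H9.E6.pq_surjective).eq_bot_or_eq_top with h5 | h5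
    · have h6 : pq g = 1 := by
        rw [← Subgroup.mem_bot, ← h5]
        exact ⟨g, h3, rfl⟩
      have h7 : g ^ 2 = 1 := by
        rcases pq_eq_one.1 h6 with h | h <;> rw [h] <;> simp
      have h8 := orderOf_dvd_of_pow_eq_one h7
      rw [hg] at h8
      exact hr2 ((Nat.prime_dvd_prime_iff_eq hr Nat.prime_two).1 h8)
    · refine hne fun y hy => hZ y fun x => ?_
      obtain ⟨n, hn, e⟩ : pq x ∈ (subRep S.RL W hW).ker.map pq := h5 ▸ Subgroup.mem_top _
      have h6 : S.ψ (x * n⁻¹) = 1 := eq_one_of_center h2 (S.ψ_mem_center.2 (pq_eq_one.1 (by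
        rw [map_mul, map_inv, e, mul_inv_cancel])))
      rw [map_mul, map_inv, mul_inv_eq_one] at h6
      rw [h6, ← hb_RL]
      exact congrArg Subtype.val (LinearMap.congr_fun hn ⟨y, hy⟩)
  have h3 : (r : k) ≠ 0 := by
    have := S.chark
    subst hp
    rw [Ne, CharP.cast_eq_zero_iff k 2, Nat.prime_dvd_prime_iff_eq Nat.prime_two hr]
    exact Ne.symm hr2
  obtain ⟨v, hv, h0, c, hc1, hc, e⟩ := exists_eig (S.RL g) h3 (by rw [← map_pow, ← hg, pow_orderOf_eq_one, map_one])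
    W (hW g) hw h1
  refine ⟨v, hv, fun h => hc1 (smul_left_injective k h0 ?_), nilp_of_eig h2 ((S.hb_RL g v).symm.trans e) ?_⟩
  · show c • v = (1 : k) • v
    rw [← e, S.hb_Zc h, one_smul]
  · have h5 : orderOf c = r := orderOf_eq_prime hc hc1
    have h6 : IsOfFinOrder c := isOfFinOrder_iff_pow_eq_one.2 ⟨r, hr.pos, hc⟩
    have key : ∀ i j : Fin 8, i.val < j.val → c ^ 2 ^ i.val ≠ c ^ 2 ^ j.val := by
      intro i j hij h7
      rw [h6.pow_eq_pow_iff_modEq, h5, Nat.modEq_iff_dvd' (Nat.pow_le_pow_right two_pos hij.le),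
        show j.val = i.val + (j.val - i.val) by omega, pow_add, ← Nat.mul_sub_one, hr.dvd_mul] at h7
      rcases h7 with h7 | h7
      · exact hr2 ((Nat.prime_dvd_prime_iff_eq hr Nat.prime_two).1 (hr.dvd_of_dvd_pow h7))
      · subst hp
        exact hrc _ (by omega) (by omega) h7
    intro i j hij
    rcases lt_trichotomy i.val j.val with h | h | h
    · exact absurd hij (key i j h)
    · exact Fin.ext h
    · exact absurd hij.symm (key j i h)

/-- Heisenberg subalgebras -/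
structure Heis (E : Submodule k (chevE7.Idx → k)) : Prop where
  z : Zc k ≤ E
  st : S.HbSt E
  sq : ∀ x ∈ E, sq k x ∈ Zc k
  nd : ∀ x ∈ E, x ∈ Cz E → x ∈ Zc k

/-- minimal submodules of the centraliser -/
structure Mn (E W : Submodule k (chevE7.Idx → k)) : Prop where
  z : Zc k ≤ W
  ne : ¬ W ≤ Zc k
  le : W ≤ Cz E
  st : S.HbSt W
  smp : ∀ Y, S.HbSt Y → Zc k ≤ Y → Y ≤ W → Y ≤ Zc k ∨ W ≤ Y
  ab : ∀ x ∈ W, ∀ y ∈ W, br k x y ∈ Zc k

theorem hb_exists_mn (hp : p = 2) {E : Submodule k (chevE7.Idx → k)} (hE : S.HbSt E) (hne : ¬ Cz E ≤ Zc k) :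
    ∃ W, S.Mn E W := by
  classical
  have := S.closed
  let ρ := quotRep S.RL (Zc k) S.hbSt_Zc
  let C := (Cz E).map (Zc k).mkQ
  have hmap : ∀ Y, S.HbSt Y → ∀ g, ∀ y ∈ Y.map (Zc k).mkQ, ρ g y ∈ Y.map (Zc k).mkQ := by
    rintro Y hY g _ ⟨y, hy, rfl⟩
    exact ⟨_, hY g y hy, rfl⟩
  have hbot : ∀ Y : Submodule k (chevE7.Idx → k), Y.map (Zc k).mkQ = ⊥ → Y ≤ Zc k := fun Y h y hy => by
    have h1 : (Zc k).mkQ y ∈ Y.map (Zc k).mkQ := ⟨y, hy, rfl⟩
    rw [h] at h1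
    exact (Submodule.Quotient.mk_eq_zero _).1 h1
  have hzc : Zc k ≤ Cz E := fun z hz x _ => br_Zc' hz x
  obtain ⟨U, ⟨h1, h2, h3⟩, hmin⟩ := (measure fun U : Submodule k (_ ⧸ Zc k) => finrank k U).wf.has_min
    {U | U ≠ ⊥ ∧ U ≤ C ∧ ∀ g, ∀ y ∈ U, ρ g y ∈ U} ⟨C, fun h => hne (hbot _ h), le_rfl, hmap _ hE.cz⟩
  have hmin' : ∀ U' ≤ U, (∀ g, ∀ y ∈ U', ρ g y ∈ U') → U' = ⊥ ∨ U' = U := fun U' h4 h5 =>
    or_iff_not_imp_left.2 fun h6 => Submodule.eq_of_le_of_finrank_le h4 (not_lt.1 (hmin U' ⟨h6, h4.trans h2, h5⟩))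
  have hle : U.comap (Zc k).mkQ ≤ Cz E := fun y hy => by
    obtain ⟨y', hy', e⟩ := h2 hy
    have h4 := add_mem hy' (hzc ((Submodule.Quotient.eq _).1 e.symm))
    rwa [add_sub_cancel] at h4
  refine ⟨U.comap (Zc k).mkQ, fun z hz => ?_, fun h => h1 (eq_bot_iff.2 fun y hy => ?_), hle, fun g y hy => h3 g _ hy,
    fun Y hY h4 h5 => ?_, fun x hx y hy => ?_⟩
  · show (Zc k).mkQ z ∈ U
    rw [show (Zc k).mkQ z = 0 from (Submodule.Quotient.mk_eq_zero _).2 hz]
    exact zero_mem _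
  · obtain ⟨y, rfl⟩ := (Zc k).mkQ_surjective y
    exact (Submodule.Quotient.mk_eq_zero _).2 (h hy)
  · refine (hmin' _ (Submodule.map_le_iff_le_comap.2 h5) (hmap Y hY)).imp (hbot Y) fun h6 y hy => ?_
    obtain ⟨y', hy', e⟩ : (Zc k).mkQ y ∈ Y.map (Zc k).mkQ := h6 ▸ hy
    have h7 := add_mem hy' (h4 ((Submodule.Quotient.eq _).1 e.symm))
    rwa [add_sub_cancel] at h7
  · let β0 := ((br k).compr₂ (Zc k).mkQ).liftQ₂ (Zc k) (Zc k)
      (fun z hz => LinearMap.ext fun x => by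
        show (Zc k).mkQ (br k z x) = 0
        rw [br_Zc hz, map_zero])
      (fun z hz => LinearMap.ext fun x => by
        show (Zc k).mkQ (br k x z) = 0
        rw [br_Zc' hz, map_zero])
    have hβ : ∀ x y : U, β0 x y ∈ C := by
      rintro ⟨x, hx⟩ ⟨y, hy⟩
      obtain ⟨x, rfl⟩ := (Zc k).mkQ_surjective x
      obtain ⟨y, rfl⟩ := (Zc k).mkQ_surjective y
      refine ⟨br k x y, fun e he => ?_, rfl⟩
      rw [br_jacobi, hle hx e he, hle hy e he, map_zero, map_zero, LinearMap.zero_apply, add_zero]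
    let β : U →ₗ[k] U →ₗ[k] C := LinearMap.mk₂ k (fun x y => ⟨β0 x y, hβ x y⟩)
      (fun x x' y => Subtype.ext (LinearMap.congr_fun (map_add β0 x.1 x'.1) y.1))
      (fun c x y => Subtype.ext (LinearMap.congr_fun (map_smul β0 c x.1) y.1))
      (fun x y y' => Subtype.ext (map_add (β0 x) y.1 y'.1)) (fun c x y => Subtype.ext (map_smul (β0 x) c y.1))
    have h4 := (S.hb_alt hp (irr_of_min ρ h3 h1 hmin')).1 C (subRep ρ C (hmap _ hE.cz)) (fun T hT hlt => by
      by_contra h5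
      refine hmin (T.map C.subtype) ⟨fun e => h5 ?_, C.map_subtype_le T, ?_⟩ ?_
      · exact Submodule.map_injective_of_injective C.subtype_injective (by rw [e, Submodule.map_bot])
      · rintro g _ ⟨x, hx, rfl⟩
        exact ⟨_, hT g x hx, rfl⟩
      · show finrank k (T.map C.subtype) < _
        rwa [Submodule.finrank_map_subtype_eq]) β (by
      rintro ⟨x, hx⟩
      obtain ⟨x, rfl⟩ := (Zc k).mkQ_surjective x
      refine Subtype.ext ?_
      show (Zc k).mkQ (br k x x) = 0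
      rw [br_self, map_zero]) (by
      rintro g ⟨x, hx⟩ ⟨y, hy⟩
      obtain ⟨x, rfl⟩ := (Zc k).mkQ_surjective x
      obtain ⟨y, rfl⟩ := (Zc k).mkQ_surjective y
      refine Subtype.ext ?_
      show (Zc k).mkQ (br k (S.RL g x) (S.RL g y)) = (Zc k).mkQ (S.RL g (br k x y))
      rw [hb_br]) ⟨_, hx⟩ ⟨_, hy⟩
    exact (Submodule.Quotient.mk_eq_zero _).1 (congrArg Subtype.val h4)

variable {S}

theorem Mn.step (hp : p = 2) {E W : Submodule k (chevE7.Idx → k)} (h : S.Mn E W) :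
    (∀ x ∈ W, sq k x ∈ Zc k) ∨ ∃ W', S.Mn E W' ∧ ∀ x ∈ W, x ∉ Zc k → sq k x ∈ W' ∧ sq k x ∉ Zc k := by
  have := S.closed
  have h2 := S.two hp
  have key : ∀ Y, S.HbSt Y → Zc k ≤ Y → (∀ x ∈ W, sq k x ∈ Y → x ∈ Zc k) ∨ ∀ x ∈ W, sq k x ∈ Y := fun Y hY h1 =>
    (h.smp _ (HbSt.pre S hp (fun x hx y hy => h1 (h.ab x hx y hy)) h.st hY)
      (fun z hz => ⟨h.z hz, h1 (sq_Zc h2 hz)⟩) fun _ hx => hx.1).imp (fun h3 x hx hx' => h3 ⟨hx, hx'⟩)
      fun h3 x hx => (h3 hx).2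
  refine (key _ S.hbSt_Zc le_rfl).symm.imp id fun h1 => ?_
  have hm : ∀ x ∈ W, sq k x ∈ Sq h2 h.ab := fun x hx => ⟨x, hx, by rw [sub_self]; exact zero_mem _⟩
  have hb : ∀ y ∈ Sq h2 h.ab, ∃ x ∈ W, ∀ w, br k y w = br k x (br k x w) := by
    rintro y ⟨x, hx, e⟩
    refine ⟨x, hx, fun w => ?_⟩
    have h3 := br_Zc e w
    rwa [map_sub, LinearMap.sub_apply, sub_eq_zero, br_sq h2] at h3
  refine ⟨Sq h2 h.ab, ⟨fun z hz => ⟨0, zero_mem _, by rwa [sq_zero h2, sub_zero]⟩,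
    fun h3 => h.ne fun x hx => h1 x hx (h3 (hm x hx)), fun y hy e he => ?_, ?_, fun Y hY h3 h4 => ?_,
    fun y hy y' hy' => ?_⟩, fun x hx h3 => ⟨hm x hx, fun h4 => h3 (h1 x hx h4)⟩⟩
  · obtain ⟨x, hx, h3⟩ := hb y hy
    rw [br_anti, h3, br_anti x e, h.le hx e he, neg_zero, map_zero, neg_zero]
  · rintro g y ⟨x, hx, e⟩
    refine ⟨_, h.st g x hx, ?_⟩
    rw [← S.hb_sq hp, ← map_sub]
    exact S.hbSt_Zc g _ e
  · refine (key Y hY h3).imp (fun h5 y hy => ?_) ?_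
    · obtain ⟨x, hx, e⟩ := h4 hy
      have h6 := sub_mem hy (h3 e)
      rw [sub_sub_cancel] at h6
      have h7 := add_mem e (sq_Zc h2 (h5 x hx h6))
      rwa [sub_add_cancel] at h7
    · rintro h5 y ⟨x, hx, e⟩
      have h6 := add_mem (h3 e) (h5 x hx)
      rwa [sub_add_cancel] at h6
  · obtain ⟨x, hx, h3⟩ := hb y hy
    obtain ⟨x', hx', h4⟩ := hb y' hy'
    rw [h3, br_anti x y', h4, br_Zc' (h.ab x' hx' x hx), neg_zero, map_zero]
    exact zero_mem _

theorem Mn.good (hp : p = 2) {E : Submodule k (chevE7.Idx → k)} (n : ℕ) : ∀ {W}, S.Mn E W → ∀ x ∈ W, x ∉ Zc k →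
    del k x ^ 2 ^ n = 0 → ∃ W', S.Mn E W' ∧ ∀ x ∈ W', sq k x ∈ Zc k := by
  induction n with
  | zero =>
    intro W _ x _ h1 h2
    rw [pow_zero, pow_one] at h2
    exact absurd (Mu.del_inj h2 ▸ zero_mem _) h1
  | succ n ih =>
    intro W h x hx h1 h2
    rcases h.step hp with h3 | ⟨W', h3, h4⟩
    · exact ⟨W, h, h3⟩
    · exact ih h3 _ (h4 x hx h1).1 (h4 x hx h1).2 (by rw [del_sq (S.two hp), ← pow_two, ← pow_mul, ← pow_succ', h2])

theorem Heis.step (hp : p = 2) (hZ : S.FixZ) (hP : PEEL k) {E : Submodule k (chevE7.Idx → k)} (h : S.Heis E) :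
    ∃ E', S.Heis E' ∧ E < E' := by
  have := S.closed
  have h2 := S.two hp
  obtain ⟨W0, h0⟩ := S.hb_exists_mn hp h.st (cz_big h2 h.sq (heis_le h2 h.z h.sq h.nd))
  obtain ⟨x, hx, h1, n, hn⟩ := S.hb_exists_nil hp hZ h0.st h0.ne
  obtain ⟨W, hW, h3⟩ := Mn.good hp n h0 x hx h1 (pow_eq_zero_of_le Nat.lt_two_pow_self.le hn)
  rcases hW.smp (W ⊓ Cz W) (fun g y hy => ⟨hW.st g y hy.1, hW.st.cz S g y hy.2⟩)
    (fun z hz => ⟨hW.z hz, fun x _ => br_Zc' hz x⟩) inf_le_left with h4 | h4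
  · refine ⟨E ⊔ W, ⟨h.z.trans le_sup_left, fun g y hy => ?_, fun y hy => ?_, fun y hy h5 => ?_⟩,
      lt_of_le_of_ne le_sup_left fun e => hW.ne fun y hy => h.nd y (e ▸ Submodule.mem_sup_right hy) (hW.le hy)⟩
    · obtain ⟨e, he, w, hw, rfl⟩ := Submodule.mem_sup.1 hy
      rw [map_add]
      exact Submodule.add_mem_sup (h.st g e he) (hW.st g w hw)
    · obtain ⟨e, he, w, hw, rfl⟩ := Submodule.mem_sup.1 hy
      rw [sq_add h2, hW.le hw e he, add_zero]
      exact add_mem (h.sq e he) (h3 w hw)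
    · obtain ⟨e, he, w, hw, rfl⟩ := Submodule.mem_sup.1 hy
      refine add_mem (h.nd e he fun y hy => ?_) (h4 ⟨hw, fun y hy => ?_⟩)
      · have h6 := h5 y (Submodule.mem_sup_left hy)
        rwa [map_add, hW.le hw y hy, add_zero] at h6
      · have h6 := h5 y (Submodule.mem_sup_right hy)
        rwa [map_add, br_anti, hW.le hy e he, neg_zero, zero_add] at h6
  · exfalso
    have h5 : ∀ x ∈ W, ∀ y ∈ W, br k x y ∈ (⊥ : Submodule k (chevE7.Idx → k)) := fun x hx y hy => (h4 hy).2 x hx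
    have h6 : ∀ x ∈ Pre h2 h5, x ∈ Zc k → x = 0 := fun x hx hz =>
      eq_zero_of_Zc hz ⟨2, by rw [pow_two, (sq_eq_zero h2).1 hx.2]⟩
    refine S.hb_nil (W := Pre h2 h5) (HbSt.pre S hp h5 hW.st fun g y hy => ?_) hp hZ hP (fun e => hW.ne fun y hy => ?_)
      (fun U hU hU' => ?_) fun x hx => (sq_eq_zero h2).1 hx.2
    · rw [(Submodule.mem_bot k).1 hy, map_zero]
      exact zero_mem _
    · obtain ⟨z, hz, h7⟩ := exists_sq0 h2 (h3 y hy)
      have h8 : y + z ∈ Pre h2 h5 := ⟨add_mem hy (hW.z hz), h7⟩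
      rw [e, Submodule.mem_bot, add_eq_zero_iff_eq_neg] at h8
      rw [h8]
      exact neg_mem hz
    · refine (hW.smp (U ⊔ Zc k) (fun g y hy => ?_) le_sup_right (sup_le (fun y hy => (hU hy).1) hW.z)).imp
        (fun h7 => eq_bot_iff.2 fun y hy => h6 y (hU hy) (h7 (Submodule.mem_sup_left hy)))
        fun h7 => le_antisymm hU fun y hy => ?_
      · obtain ⟨e, he, w, hw, rfl⟩ := Submodule.mem_sup.1 hy
        rw [map_add]
        exact Submodule.add_mem_sup (hU' g e he) (S.hbSt_Zc g w hw)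
      · obtain ⟨e, he, w, hw, rfl⟩ := Submodule.mem_sup.1 (h7 hy.1)
        have h8 := sub_mem hy (hU he)
        rw [add_sub_cancel_left] at h8
        rwa [h6 w h8 hw, add_zero]

variable (S)

/-- **Case 2 is impossible** -/
theorem hb_case2 (hp : p = 2) (hP : PEEL k) (hZ : S.FixZ) : False := by
  have key : ∀ n, ∃ E, S.Heis E ∧ n ≤ finrank k E := fun n => by
    induction n with
    | zero => exact ⟨Zc k, ⟨le_rfl, S.hbSt_Zc, fun x hx => sq_Zc (S.two hp) hx, fun x hx _ => hx⟩, Nat.zero_le _⟩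
    | succ n ih =>
      obtain ⟨E, h1, h2⟩ := ih
      obtain ⟨E', h3, h4⟩ := h1.step hp hZ hP
      exact ⟨E', h3, h2.trans_lt (Submodule.finrank_lt_finrank_of_lt h4)⟩
  obtain ⟨E, -, h⟩ := key 134
  have h1 := Submodule.finrank_le E
  rw [finrank_L] at h1
  omega

end Sit

end Cfsg.Agent.E7P
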