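import Cfsg.Agent.E7P.P2.HbOm

/-!
# S5932, `p = 2`, Case 2b: the centralisers of the elements of square zero (helper92)

* `Hb.ind R B` : the sum of the root vectors in `B`; `Hb.lvI B` : the levels for the sum `tau B` of the coroots;
* `Hb.low2`, `Hb.low1`, `Hb.tri` : the negative levels of the centraliser; `Hb.free_ind`.
-/

set_option autoImplicit false
set_option maxRecDepth 100000

namespace Cfsg.Agent.E7P.Hb

open Cfsg Cfsg.Lie Matrix Module
open Cfsg.Agent.ChevalleyStructure.Columns (car cor)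
open Cfsg.Agent.H943.E7V.Block (D1 rho)
open Cfsg.Agent.R2.T1 Cfsg.Agent.E7P.Kf Cfsg.Agent.E7P.Br Cfsg.Agent.E7P.P2
open Cfsg.Agent.R2.PX (del)
open Cfsg.Agent.R2.T1.N6D (Zc mem_Zc zv del_zv Zc_eq cast_even)

universe u

section
variable (R : Type*) [CommRing R]

/-- the sum of the root vectors in `B` -/
def ind (B : List ℕ) : chevE7.Idx → R := fun i =>
  match i with
  | Sum.inr r => if r.val ∈ B then 1 else 0
  | Sum.inl _ => 0

variable {R}

theorem ind_inl (B : List ℕ) (i : Fin chevE7.rank) : ind R B (Sum.inl i) = 0 := rfl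

theorem ind_inr (B : List ℕ) (r : Fin chevE7.nroots) : ind R B (Sum.inr r) = if r.val ∈ B then 1 else 0 := rfl

theorem ind_one (r : Fin chevE7.nroots) : ind R [r.val] = Pi.single (Sum.inr r) 1 := by
  funext a
  rcases a with i | s
  · rw [ind_inl, Pi.single_eq_of_ne (by simp)]
  · rw [ind_inr]
    by_cases h : s = r
    · rw [h, Pi.single_eq_same, if_pos List.mem_cons_self]
    · rw [Pi.single_eq_of_ne (by simpa using h), if_neg (by simpa using fun e => h (Fin.ext e))]

theorem ind_sum {B : List ℕ} (h : B.Nodup) : ind R B = (B.map fun r => ind R [r]).sum := by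
  induction B with
  | nil =>
    funext a
    rcases a with i | s <;> rfl
  | cons r B ih =>
    rw [List.map_cons, List.sum_cons, ← ih h.of_cons]
    funext a
    rcases a with i | s
    · exact (add_zero _).symm
    · rw [Pi.add_apply, ind_inr, ind_inr, ind_inr]
      by_cases h1 : s.val = r
      · rw [h1, if_pos List.mem_cons_self, if_pos List.mem_cons_self, if_neg h.notMem, add_zero]
      · simp [h1]

theorem lin_ind {M : Type*} [AddCommGroup M] [Module R M] (f : (chevE7.Idx → R) →ₗ[R] M) {B : List ℕ} (h : B.Nodup) :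
    f (ind R B) = (B.map fun r => f (ind R [r])).sum := by
  rw [ind_sum h, map_list_sum, List.map_map]
  rfl

theorem comp_ind {R' : Type*} [CommRing R'] (f : R →+* R') (B : List ℕ) : f ∘ ind R B = ind R' B := by
  funext a
  rcases a with i | s
  · exact map_zero f
  · rw [Function.comp_apply, ind_inr, ind_inr, apply_ite f, map_one, map_zero]

theorem ind_ne {B : List ℕ} {a : chevE7.Idx} (h : ind R B a ≠ 0) : ∃ r : Fin chevE7.nroots, a = Sum.inr r ∧ r.val ∈ B := by
  rcases a with i | s
  · exact absurd rfl h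
  · exact ⟨s, rfl, by_contra fun h1 => h (if_neg h1)⟩

/-- good lists of roots -/
def Gd (B : List ℕ) : Prop := B.Nodup ∧ ∀ r ∈ B, r < 126

theorem phi_ind {A B C : List ℕ} (hA : Gd A) (hB : Gd B) (hC : Gd C) : phi R (ind R A) (ind R B) (ind R C) =
    (((A.map fun a => (B.map fun b => (C.map fun c => cf a b (125 - c)).sum).sum).sum : ℤ) : R) := by
  have h1 := lin_ind ((phi R).flip.flip.flip (ind R B) |>.flip (ind R C)) hA.1
  rw [show phi R (ind R A) (ind R B) (ind R C) = _ from h1, Int.cast_list_sum, List.map_map]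
  refine congrArg List.sum (List.map_congr_left fun a ha => ?_)
  have h2 := lin_ind ((phi R (ind R [a])).flip (ind R C)) hB.1
  refine Eq.trans h2 ?_
  rw [Function.comp_apply, Int.cast_list_sum, List.map_map]
  refine congrArg List.sum (List.map_congr_left fun b hb => ?_)
  refine Eq.trans (lin_ind (phi R (ind R [a]) (ind R [b])) hC.1) ?_
  rw [Function.comp_apply, Int.cast_list_sum, List.map_map]
  refine congrArg List.sum (List.map_congr_left fun c hc => ?_)
  have h3 := phi_single (R := R) ⟨a, hA.2 a ha⟩ ⟨b, hB.2 b hb⟩ ⟨c, hC.2 c hc⟩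
  rw [← ind_one, ← ind_one, ← ind_one] at h3
  exact h3

end

/-! ### levels -/

/-- the level of a root -/
def lev (B : List ℕ) (r : ℕ) : ℤ := (B.map fun b => pc b (rc r)).sum

/-- the level of a basis vector -/
def lvI (B : List ℕ) (a : chevE7.Idx) : ℤ := (B.map fun b => pc b (ac a)).sum

theorem lvI_inr (B : List ℕ) (r : Fin chevE7.nroots) : lvI B (Sum.inr r) = lev B r := rfl

theorem lvI_inl (B : List ℕ) (i : Fin chevE7.rank) : lvI B (Sum.inl i) = 0 :=
  List.sum_eq_zero fun x hx => by
    obtain ⟨b, -, rfl⟩ := List.mem_map.1 hx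
    exact Finset.sum_eq_zero fun j _ => mul_zero _

/-- the sum of the coroots -/
def tau (B : List ℕ) : E := (B.map rv).sum

theorem bf_tau {B : List ℕ} (h : ∀ r ∈ B, r < 126) (c : Fin 7 → ℤ) :
    bf (tau B) (cv c) = ((B.map fun b => pc b c).sum : ℤ) := by
  rw [bf_symm, tau, map_list_sum, List.map_map, Int.cast_list_sum, List.map_map]
  exact congrArg List.sum (List.map_congr_left fun b hb => bf_cv_rv c (h b hb))

theorem lvI_sum {B : List ℕ} (h : ∀ r ∈ B, r < 126) {a b c : chevE7.Idx} (e : ac a + ac b + ac c = 0) :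
    lvI B a + lvI B b + lvI B c = 0 := by
  have h1 := congrArg (fun v => bf (tau B) (cv v)) e
  simp only [cv_add, map_add, cv_zero, map_zero, bf_tau h] at h1
  exact_mod_cast h1

/-! ### certificates -/

section
variable {K : Type u} [Field K]

theorem br_ind {B : List ℕ} (hB : Gd B) (y : chevE7.Idx → K) (m : chevE7.Idx) :
    br K (ind K B) y m = ∑ b, (((B.map fun r => EZ r m b).sum : ℤ) : K) * y b := by
  have h1 := lin_ind ((LinearMap.proj m) ∘ₗ (br K).flip y) hB.1
  refine Eq.trans h1 ?_
  obtain ⟨-, h2⟩ := hB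
  clear h1
  induction B with
  | nil => simp
  | cons r B ih =>
    rw [List.map_cons, List.sum_cons, ih fun s hs => h2 s (List.mem_cons_of_mem _ hs)]
    simp only [List.map_cons, List.sum_cons, Int.cast_add, add_mul, Finset.sum_add_distrib]
    congr 1
    have h3 := congrFun (br_er ⟨r, h2 r List.mem_cons_self⟩ y) m
    rw [← ind_one] at h3
    refine Eq.trans h3 ?_
    rw [mulVec, dotProduct]
    exact Finset.sum_congr rfl fun b _ => by rw [EM_eq]

/-- coordinates -/
def yy (y : chevE7.Idx → K) (s : ℕ) : K := if h : s < 126 then y (Sum.inr ⟨s, h⟩) else 0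

theorem yy_val (y : chevE7.Idx → K) (s : Fin chevE7.nroots) : yy y s = y (Sum.inr s) := dif_pos s.2

theorem sum_yy (y : chevE7.Idx → K) (r : ℕ) :
    ∑ s : Fin chevE7.nroots, (((if s.val = r then 1 else 0 : ℤ)) : K) * y (Sum.inr s) = yy y r := by
  by_cases h : r < 126
  · rw [Finset.sum_eq_single ⟨r, h⟩, if_pos rfl, Int.cast_one, one_mul, yy, dif_pos h]
    · intro s _ hs
      rw [if_neg fun e => hs (Fin.ext e), Int.cast_zero, zero_mul]
    · simp
  · rw [yy, dif_neg h]
    refine Finset.sum_eq_zero fun s _ => ?_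
    have hs : s.val < 126 := s.2
    rw [if_neg (by omega), Int.cast_zero, zero_mul]

end

def par (g : ℕ → ℤ) (r r' : ℕ) : Bool :=
  (List.range 126).all fun s => (g s - (if s = r then 1 else 0) - (if s = r' then 1 else 0)) % 2 == 0

def gR (B : List ℕ) (m s : ℕ) : ℤ := (B.map fun r => cf r s m).sum

def gC (B M : List ℕ) (s : ℕ) : ℤ := (M.map fun i => (B.map fun r => if s = 125 - r then cor chevE7 r i else 0).sum).sum

def Ms : List (List ℕ) := [[2], [4], [1], [2, 6], [1, 2], [2, 4], [1, 2, 4], [1, 4, 6]]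

theorem Ms_lt : ∀ M ∈ Ms, ∀ i ∈ M, i < 7 := by decide

/-- a certificate for `y r + y r' = 0` -/
def ok (B : List ℕ) (r r' : ℕ) : Bool :=
  (B.any fun b => (F7 b r).any fun x => decide (x.1 ∉ B) && decide (x.1 < 126) && par (gR B x.1) r r') ||
    Ms.any fun M => par (gC B M) r r'

section
variable {K : Type u} [Field K]

theorem par_spec (h2 : (2 : K) = 0) {g : ℕ → ℤ} {r r' : ℕ} (h : par g r r' = true) {y : chevE7.Idx → K}
    (hy : ∑ s : Fin chevE7.nroots, (g s : K) * y (Sum.inr s) = 0) : yy y r + yy y r' = 0 := by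
  rw [← sum_yy, ← sum_yy, ← Finset.sum_add_distrib, ← hy]
  refine Finset.sum_congr rfl fun s _ => ?_
  have h1 := cast_even h2 (beq_iff_eq.1 (List.all_eq_true.1 h s (List.mem_range.2 s.2)))
  rw [Int.cast_sub, Int.cast_sub, sub_sub, sub_eq_zero] at h1
  rw [h1, add_mul]

theorem ok_spec (h2 : (2 : K) = 0) {B : List ℕ} (hB : Gd B) {r r' : ℕ} (h : ok B r r' = true) {y : chevE7.Idx → K}
    (hy : Cm (ind K B) y) : yy y r + yy y r' = 0 := by
  have h0 : ∀ m, ∑ b, (((B.map fun r => EZ r m b).sum : ℤ) : K) * y b = 0 := fun m => by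
    rw [← br_ind hB, br_eq_zero.2 hy]
    rfl
  rcases Bool.or_eq_true _ _ ▸ h with h1 | h1
  · obtain ⟨b, -, h3⟩ := List.any_eq_true.1 h1
    obtain ⟨x, -, h4⟩ := List.any_eq_true.1 h3
    simp only [Bool.and_eq_true, decide_eq_true_eq] at h4
    refine par_spec h2 h4.2 ?_
    have h5 := h0 (Sum.inr ⟨x.1, h4.1.2⟩)
    rw [Fintype.sum_sum_type, Finset.sum_eq_zero, zero_add] at h5
    · exact h5
    · intro i _
      rw [List.sum_eq_zero, Int.cast_zero, zero_mul]
      intro c hc
      obtain ⟨b, hb, rfl⟩ := List.mem_map.1 hc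
      exact if_neg fun e => h4.1.1 (by rw [show x.1 = b from e]; exact hb)
  · obtain ⟨M, hM, h3⟩ := List.any_eq_true.1 h1
    refine par_spec h2 h3 ?_
    have h4 := Ms_lt M hM
    clear h3 hM h1
    induction M with
    | nil => simp [gC]
    | cons i M ih =>
      have h5 := h0 (Sum.inl ⟨i, h4 i List.mem_cons_self⟩)
      rw [Fintype.sum_sum_type, Finset.sum_eq_zero, zero_add] at h5
      · have h6 := ih fun j hj => h4 j (List.mem_cons_of_mem _ hj)
        rw [← add_zero (0 : K)]
        nth_rewrite 1 [← h5]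
        rw [← h6, ← Finset.sum_add_distrib]
        refine Finset.sum_congr rfl fun s _ => ?_
        rw [← add_mul, ← Int.cast_add]
        rfl
      · intro j _
        rw [List.sum_eq_zero, Int.cast_zero, zero_mul]
        intro c hc
        obtain ⟨b, hb, rfl⟩ := List.mem_map.1 hc
        rfl

theorem ok_zero (h2 : (2 : K) = 0) {B : List ℕ} (hB : Gd B) {r : Fin chevE7.nroots} (h : ok B r 126 = true)
    {y : chevE7.Idx → K} (hy : Cm (ind K B) y) : y (Sum.inr r) = 0 := by
  have h1 := ok_spec h2 hB h hy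
  rwa [yy_val, yy, dif_neg (lt_irrefl _), add_zero] at h1

end

/-- point, two points, line, triangle, line and point -/
def BL : List (List ℕ) := [[125], [125, 92], [125, 92, 63], [125, 92, 87], [125, 92, 87, 63]]

theorem BL_gd : ∀ B ∈ BL, Gd B := by
  unfold Gd
  decide

theorem chk_two : (BL.all fun B => B.all fun b => lev B b == 2) = true := by decide +kernel

theorem chk_low2 : (BL.all fun B => (List.range 126).all fun r => decide (-1 ≤ lev B r) || ok B r 126) = true := by
  decide +kernel

theorem chk_low1 : ([[125], [125, 92]].all fun B => (List.range 126).all fun r =>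
    decide (lev B r ≠ -1) || ok B r 126) = true := by decide +kernel

theorem chk_tri : ((List.range 126).all fun r => decide (lev [125, 92, 87] r ≠ -1) || decide (r ∈ [93, 16, 11]) ||
    decide (r ∈ [94, 22, 17]) || ok [125, 92, 87] r 126) = true := by decide +kernel

theorem chk_tri2 : ([(93, 16), (93, 11), (94, 22), (94, 17)].all fun x => ok [125, 92, 87] x.1 x.2) = true := by
  decide +kernel

theorem chk_tri3 : ([125, 92, 87].map fun a => ([93, 16, 11].map fun b => ([94, 22, 17].map fun c =>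
    cf a b (125 - c)).sum).sum).sum % 4 = 2 := by decide +kernel

theorem chk_tri4 : ∀ r ∈ [93, 16, 11, 94, 22, 17], lev [125, 92, 87] r = -1 := by decide +kernel

theorem chk_free : ([[125, 92, 63], [125, 92, 87, 63]].all fun B =>
    ((List.range 126).all fun m => ([0, 33, 62].map (gR B m)).sum % 2 == 0) &&
    (List.range 7).all fun i => (([0, 33, 62].map (gC B [i])).sum - R2.T2.Alg.zc i) % 2 == 0) = true := by
  decide +kernel

section
variable {K : Type u} [Field K] {B : List ℕ} {y : chevE7.Idx → K} {a : chevE7.Idx}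

theorem lev_two {R : Type*} [CommRing R] (hB : B ∈ BL) (h : ind R B a ≠ 0) : lvI B a = 2 := by
  obtain ⟨r, rfl, hr⟩ := ind_ne h
  exact beq_iff_eq.1 (List.all_eq_true.1 (List.all_eq_true.1 chk_two B hB) r hr)

theorem low2 (h2 : (2 : K) = 0) (hB : B ∈ BL) (hy : Cm (ind K B) y) (ha : y a ≠ 0) : -1 ≤ lvI B a := by
  rcases a with i | r
  · rw [lvI_inl]
    decide
  · rcases Bool.or_eq_true _ _ ▸ List.all_eq_true.1 (List.all_eq_true.1 chk_low2 B hB) r (List.mem_range.2 r.2) with h | h
    · exact of_decide_eq_true h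
    · exact absurd (ok_zero h2 (BL_gd B hB) h hy) ha

theorem low1 (h2 : (2 : K) = 0) (hB : B ∈ [[125], [125, 92]]) (hy : Cm (ind K B) y) (ha : y a ≠ 0) : 0 ≤ lvI B a := by
  have hB' : B ∈ BL := List.mem_append_left [[125, 92, 63], [125, 92, 87], [125, 92, 87, 63]] hB
  have h1 := low2 h2 hB' hy ha
  rcases a with i | r
  · rw [lvI_inl]
  · rcases Bool.or_eq_true _ _ ▸ List.all_eq_true.1 (List.all_eq_true.1 chk_low1 B hB) r (List.mem_range.2 r.2) with h | h
    · have h3 : lvI B (Sum.inr r) ≠ -1 := of_decide_eq_true h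
      omega
    · exact absurd (ok_zero h2 (BL_gd B hB') h hy) ha

theorem tri (h2 : (2 : K) = 0) (hy : Cm (ind K [125, 92, 87]) y) (ha : lvI [125, 92, 87] a < 0) :
    y a = yy y 93 * ind K [93, 16, 11] a + yy y 94 * ind K [94, 22, 17] a := by
  have hB : [125, 92, 87] ∈ BL := by decide
  have key : ∀ x ∈ [(93, 16), (93, 11), (94, 22), (94, 17)], yy y x.2 = yy y x.1 := fun x hx => by
    have h1 := ok_spec h2 (BL_gd _ hB) (List.all_eq_true.1 chk_tri2 x hx) hy
    rw [eq_neg_of_add_eq_zero_right h1, neg_eq h2]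
  rcases a with i | r
  · rw [lvI_inl] at ha
    exact absurd ha (lt_irrefl _)
  rw [ind_inr, ind_inr]
  by_cases h1 : r.val ∈ [93, 16, 11]
  · have h3 : ∀ s ∈ [93, 16, 11], s ∉ [94, 22, 17] := by decide
    rw [if_pos h1, if_neg (h3 _ h1), mul_one, mul_zero, add_zero, ← yy_val y r]
    simp only [List.mem_cons, List.not_mem_nil, or_false] at h1
    rcases h1 with h | h | h <;> rw [h]
    · exact key (93, 16) (by decide)
    · exact key (93, 11) (by decide)
  by_cases h3 : r.val ∈ [94, 22, 17]
  · rw [if_neg h1, if_pos h3, mul_one, mul_zero, zero_add, ← yy_val y r]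
    simp only [List.mem_cons, List.not_mem_nil, or_false] at h3
    rcases h3 with h | h | h <;> rw [h]
    · exact key (94, 22) (by decide)
    · exact key (94, 17) (by decide)
  rw [if_neg h1, if_neg h3, mul_zero, mul_zero, add_zero]
  by_contra h0
  have h4 := low2 h2 hB hy h0
  have h5 := List.all_eq_true.1 chk_tri r (List.mem_range.2 r.2)
  simp only [Bool.or_eq_true, decide_eq_true_eq] at h5
  rcases h5 with ((h | h) | h) | h
  · rw [lvI_inr] at h4 ha
    omega
  · exact h1 h
  · exact h3 h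
  · exact h0 (ok_zero h2 (BL_gd _ hB) h hy)

theorem free_ind (h2 : (2 : K) = 0) (hB : B ∈ [[125, 92, 63], [125, 92, 87, 63]]) :
    br K (ind K B) (ind K [0, 33, 62]) = zv K := by
  have hB' : B ∈ BL := (show ∀ B ∈ [[125, 92, 63], [125, 92, 87, 63]], B ∈ BL by decide) B hB
  have h1 := List.all_eq_true.1 chk_free B hB
  rw [Bool.and_eq_true] at h1
  have h3 : ∀ m, br K (ind K B) (ind K [0, 33, 62]) m = ([0, 33, 62].map fun s => br K (ind K B) (ind K [s]) m).sum :=
    fun m => lin_ind ((LinearMap.proj m) ∘ₗ br K (ind K B)) (by decide)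
  have h4 : ∀ (s : Fin chevE7.nroots) m, br K (ind K B) (ind K [s.val]) m =
      (((B.map fun r => EZ r m (Sum.inr s)).sum : ℤ) : K) := fun s m => by
    rw [br_ind (BL_gd B hB'), ind_one, Finset.sum_eq_single (Sum.inr s), Pi.single_eq_same, mul_one]
    · intro b _ hb
      rw [Pi.single_eq_of_ne hb, mul_zero]
    · simp
  funext m
  rw [h3]
  simp only [List.map_cons, List.map_nil, List.sum_cons, List.sum_nil]
  rw [h4 ⟨0, by decide⟩, h4 ⟨33, by decide⟩, h4 ⟨62, by decide⟩]
  rcases m with i | u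
  · have h5 := cast_even h2 (beq_iff_eq.1 (List.all_eq_true.1 h1.2 i (List.mem_range.2 i.2)))
    rw [Int.cast_sub, sub_eq_zero] at h5
    refine Eq.trans ?_ h5
    simp only [gC, List.map_cons, List.map_nil, List.sum_cons, List.sum_nil, Int.cast_add, add_zero]
    rfl
  · have h5 := cast_even h2 (beq_iff_eq.1 (List.all_eq_true.1 h1.1 u (List.mem_range.2 u.2)))
    refine Eq.trans ?_ h5
    simp only [gR, List.map_cons, List.map_nil, List.sum_cons, List.sum_nil, Int.cast_add, add_zero]
    rfl

end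

/-- **the form does not vanish** in the triangle case -/
theorem Lf.om_tri {k : Type u} [Field k] {R : Type u} [CommRing R] [IsDomain R] (L : Lf k R) {y z : chevE7.Idx → k}
    (h : Cm3 (ind k [125, 92, 87]) y z) (hy : ∀ a, lvI [125, 92, 87] a < 0 → y a = ind k [93, 16, 11] a)
    (hz : ∀ a, lvI [125, 92, 87] a < 0 → z a = ind k [94, 22, 17] a) : L.om (ind k [125, 92, 87]) y z ≠ 0 := by
  classical
  have hB : [125, 92, 87] ∈ BL := by decide
  have lift : ∀ (C : List ℕ) (y : chevE7.Idx → k), (∀ a, lvI [125, 92, 87] a < 0 → y a = ind k C a) →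
      ∃ y' : chevE7.Idx → R, y = L.π ∘ (ind R C + y') ∧ ∀ a, y' a ≠ 0 → 0 ≤ lvI [125, 92, 87] a := by
    intro C y hy
    refine ⟨fun a => if lvI [125, 92, 87] a < 0 then 0 else L.sec (y a - ind k C a), funext fun a => ?_,
      fun a ha => not_lt.1 fun h1 => ha (if_pos h1)⟩
    rw [Function.comp_apply, Pi.add_apply, map_add, show L.π (ind R C a) = ind k C a from congrFun (comp_ind L.π C) a]
    by_cases h1 : lvI [125, 92, 87] a < 0
    · rw [if_pos h1, map_zero, add_zero, hy a h1]
    · rw [if_neg h1, L.π_sec, add_sub_cancel]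
  obtain ⟨y', rfl, h1⟩ := lift _ y hy
  obtain ⟨z', rfl, h2⟩ := lift _ z hz
  have h3 : ∀ a, ind R [93, 16, 11] a ≠ 0 → lvI [125, 92, 87] a = -1 := fun a ha => by
    obtain ⟨r, rfl, hr⟩ := ind_ne ha
    exact chk_tri4 r (List.mem_append_left [94, 22, 17] hr)
  have h4 : ∀ a, ind R [94, 22, 17] a ≠ 0 → lvI [125, 92, 87] a = -1 := fun a ha => by
    obtain ⟨r, rfl, hr⟩ := ind_ne ha
    exact chk_tri4 r (List.mem_append_right [93, 16, 11] hr)
  have van : ∀ (y z : chevE7.Idx → R), (∀ b c, y b ≠ 0 → z c ≠ 0 → -1 ≤ lvI [125, 92, 87] b + lvI [125, 92, 87] c) →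
      phi R (ind R [125, 92, 87]) y z = 0 := fun y z h => phi_zero fun a b c ha hb hc e => by
    have h5 := lvI_sum (BL_gd _ hB).2 e
    have h6 := lev_two hB ha
    have h7 := h b c hb hc
    omega
  obtain ⟨q, hq⟩ : ∃ q : ℤ, ([125, 92, 87].map fun a => ([93, 16, 11].map fun b => ([94, 22, 17].map fun c =>
      cf a b (125 - c)).sum).sum).sum = 2 * (2 * q + 1) := by
    have key : ∀ n : ℤ, n % 4 = 2 → ∃ q, n = 2 * (2 * q + 1) := fun n hn => ⟨n / 4, by omega⟩
    exact key _ chk_tri3
  rw [← comp_ind L.π] at h ⊢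
  rw [L.om_eq h (d := 2 * q + 1)]
  · rw [map_add, map_mul, map_ofNat, L.two_k, zero_mul, zero_add, map_one]
    exact one_ne_zero
  · rw [map_add, map_add, LinearMap.add_apply, LinearMap.add_apply, van _ z' fun b c hb hc => by
        have := h3 b hb
        have := h2 c hc
        omega, van y' _ fun b c hb hc => by
        have := h1 b hb
        have := h4 c hc
        omega, van y' z' fun b c hb hc => by
        have := h1 b hb
        have := h2 c hc
        omega, add_zero, add_zero, add_zero, phi_ind (BL_gd _ hB) (by unfold Gd; decide) (by unfold Gd; decide), hq]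
    push_cast
    rfl

end Cfsg.Agent.E7P.Hb
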