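import Cfsg.Agent.E7P.P2.HbTwo
import Cfsg.Agent.E7P.P2.CbMain

/-!
# S5932: the box `p = 2` (helper23)
-/

set_option autoImplicit false

namespace Cfsg.Agent.E7P

universe u v

/-- **`p = 2` does not occur** -/
theorem boxTwo : BoxTwo.{u, v} := boxTwo_of fun _ _ _ _ _ _ _ _ _ _ _ S hp h => S.fixZ_of hp h

end Cfsg.Agent.E7P
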